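import Cfsg.Agent.Gag.M1A

/-! # Reduction to central extensions with kernel of odd order; lifting of 2-elements -/

set_option autoImplicit false

namespace Cfsg.Gag

open Subgroup Cfsg.FT
open scoped Pointwise

universe u

variable {G : Type u} [Group G]

namespace CExt

variable (X : CExt G)

theorem comm_ker {z : X.E} (hz : z ∈ X.π.ker) (g : X.E) : Commute z g :=
  (mem_center_iff.1 (X.cen hz) g).symm

/-- the kernel of the `n`-th power of the central character -/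
def powKer (n : ℕ) : Subgroup X.E := ((powMonoidHom n).comp X.lam).ker.map X.π.ker.subtype

theorem mem_powKer {n : ℕ} {z : X.E} :
    z ∈ X.powKer n ↔ ∃ h : z ∈ X.π.ker, X.lam ⟨z, h⟩ ^ n = 1 :=
  ⟨fun ⟨w, hw, e⟩ => e ▸ ⟨w.2, hw⟩, fun ⟨h, e⟩ => ⟨⟨z, h⟩, e, rfl⟩⟩

theorem powKer_le (n : ℕ) : X.powKer n ≤ X.π.ker := fun _ hz => (X.mem_powKer.1 hz).1

instance powKer_normal (n : ℕ) : (X.powKer n).Normal :=
  ⟨fun _ hz g => by rwa [← (X.comm_ker (X.powKer_le n hz) g).eq, mul_inv_cancel_right]⟩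

/-- the projection of the power extension -/
def powπ (n : ℕ) : X.E ⧸ X.powKer n →* G := QuotientGroup.lift _ X.π (X.powKer_le n)

/-- the map between the kernels -/
def powF (n : ℕ) : X.π.ker →* (X.powπ n).ker where
  toFun z := ⟨(z : X.E), z.2⟩
  map_one' := rfl
  map_mul' _ _ := rfl

theorem powF_surj (n : ℕ) : Function.Surjective (X.powF n) := by
  rintro ⟨w, hw⟩
  obtain ⟨z, rfl⟩ := QuotientGroup.mk_surjective w
  exact ⟨⟨z, hw⟩, rfl⟩

theorem powF_ker (n : ℕ) : (X.powF n).ker = ((powMonoidHom n).comp X.lam).ker := by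
  ext z
  rw [MonoidHom.mem_ker, Subtype.ext_iff]
  exact (QuotientGroup.eq_one_iff (z : X.E)).trans
    (X.mem_powKer.trans ⟨fun ⟨_, h⟩ => h, fun h => ⟨z.2, h⟩⟩)

/-- the central character of the power extension -/
noncomputable def powLam (n : ℕ) : (X.powπ n).ker →* ℂˣ :=
  (X.powF n).liftOfSurjective (X.powF_surj n) ⟨_, (X.powF_ker n).le⟩

theorem powLam_apply (n : ℕ) (z : X.π.ker) : X.powLam n (X.powF n z) = X.lam z ^ n :=
  MonoidHom.liftOfRightInverse_comp_apply _ _ _ _ z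

/-- the extension whose pairing is the `n`-th power of the given one -/
noncomputable def pow (n : ℕ) : CExt G where
  E := X.E ⧸ X.powKer n
  π := X.powπ n
  surj g := let ⟨e, he⟩ := X.surj g; ⟨e, he⟩
  cen := fun w hw => by
    obtain ⟨z, hz⟩ := X.powF_surj n ⟨w, hw⟩
    rw [← show ((z : X.E) : X.E ⧸ X.powKer n) = w from congrArg Subtype.val hz, mem_center_iff]
    intro g
    obtain ⟨g, rfl⟩ := QuotientGroup.mk_surjective g
    exact ((X.comm_ker z.2 g).map (QuotientGroup.mk' _)).symm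
  lam := X.powLam n
  inj := (injective_iff_map_eq_one _).2 fun w hw => by
    obtain ⟨z, rfl⟩ := X.powF_surj n w
    rw [powLam_apply] at hw
    exact (X.powF_ker n).ge hw

theorem pow_β (n : ℕ) {a b : G} (h : Commute a b) : (X.pow n).cp.β a b = X.cp.β a b ^ n := by
  obtain ⟨a, rfl⟩ := X.surj a
  obtain ⟨b, rfl⟩ := X.surj b
  rw [X.cp_β h, ← X.powLam_apply]
  exact (X.pow n).cp_β (a := (a : X.E ⧸ X.powKer n)) (b := (b : X.E ⧸ X.powKer n)) h

theorem β_pow_card {a b : G} (h : Commute a b) : X.cp.β a b ^ Nat.card X.π.ker = 1 := by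
  obtain ⟨a, rfl⟩ := X.surj a
  obtain ⟨b, rfl⟩ := X.surj b
  rw [X.cp_β h, ← map_pow, pow_card_eq_one', map_one]

/-- reduction to a kernel of odd order -/
theorem exists_odd : ∃ Y : CExt G, Odd (Nat.card Y.π.ker) ∧
    ∃ k : ℕ, ∀ a b : G, Commute a b → Y.cp.β a b = X.cp.β a b ^ 2 ^ k := by
  obtain ⟨k, m, hm, e⟩ := Nat.exists_eq_two_pow_mul_odd (Nat.card_pos (α := X.π.ker)).ne'
  refine ⟨X.pow (2 ^ k), ?_, k, fun a b h => X.pow_β _ h⟩
  rw [← Nat.not_even_iff_odd, even_iff_two_dvd]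
  intro h
  obtain ⟨w, hw⟩ := exists_prime_orderOf_dvd_card' 2 h
  obtain ⟨z, hz⟩ := X.powF_surj (2 ^ k) w
  have h1 : (X.pow (2 ^ k)).lam w = X.lam z ^ 2 ^ k := hz ▸ X.powLam_apply _ z
  refine hm.not_two_dvd_nat (hw ▸ orderOf_dvd_of_pow_eq_one ((X.pow (2 ^ k)).inj ?_))
  rw [map_pow, map_one, h1, ← pow_mul, ← e, ← map_pow, pow_card_eq_one', map_one]

/-- reduction to a kernel of odd order, in the form used for elements of odd order -/
theorem exists_odd' : ∃ Y : CExt G, Odd (Nat.card Y.π.ker) ∧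
    ∀ a b : G, Commute a b → Odd (orderOf a) → (Y.cp.β a b = 1 ↔ X.cp.β a b = 1) := by
  obtain ⟨Y, h1, k, h2⟩ := X.exists_odd
  refine ⟨Y, h1, fun a b h ha => ?_⟩
  rw [h2 a b h]
  refine ⟨fun h3 => orderOf_eq_one_iff.1 (Nat.eq_one_of_dvd_coprimes (?_ : (2 ^ k).Coprime _)
    (orderOf_dvd_of_pow_eq_one h3) (orderOf_dvd_of_pow_eq_one
      (X.cp.pow_eq_one_of_left h (pow_orderOf_eq_one a)))), fun h3 => by rw [h3, one_pow]⟩
  exact (Nat.coprime_two_left.2 ha).pow_left k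

variable {X} (hZ : Odd (Nat.card X.π.ker))
include hZ

theorem β_eq_one_of_two {a b : G} (h : Commute a b) {k : ℕ} (ha : a ^ 2 ^ k = 1) :
    X.cp.β a b = 1 :=
  orderOf_eq_one_iff.1 (Nat.eq_one_of_dvd_coprimes ((Nat.coprime_two_left.2 hZ).pow_left k)
    (orderOf_dvd_of_pow_eq_one (X.cp.pow_eq_one_of_left h ha))
    (orderOf_dvd_of_pow_eq_one (X.β_pow_card h)))

theorem commute_iff_of_two {a b : X.E} {k : ℕ} (ha : X.π a ^ 2 ^ k = 1) :
    Commute a b ↔ Commute (X.π a) (X.π b) :=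
  ⟨fun h => h.map _, fun h => (X.cp_β_eq_one h).1 (β_eq_one_of_two hZ h ha)⟩

theorem odd_of_mem_ker {z : X.E} (hz : z ∈ X.π.ker) : Odd (orderOf z) :=
  hZ.of_dvd_nat (X.π.ker.orderOf_dvd_natCard hz)

theorem eq_one_of_two {z : X.E} {k : ℕ} (hz : z ^ 2 ^ k = 1) (h : X.π z = 1) : z = 1 :=
  orderOf_eq_one_iff.1 (Nat.eq_one_of_dvd_coprimes
    ((Nat.coprime_two_left.2 (odd_of_mem_ker hZ h)).pow_left k)
    (orderOf_dvd_of_pow_eq_one hz) dvd_rfl)

/-- two 2-elements with the same image are equal -/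
theorem eq_of_two {a b : X.E} {k l : ℕ} (ha : a ^ 2 ^ k = 1) (hb : b ^ 2 ^ l = 1)
    (h : X.π a = X.π b) : a = b := by
  have h1 : Commute a b := (commute_iff_of_two hZ (k := k) (by rw [← map_pow, ha, map_one])).2
    (by rw [h])
  refine mul_inv_eq_one.1 (eq_one_of_two hZ (k := k + l) ?_ (by simp [h]))
  rw [h1.inv_right.mul_pow, inv_pow, pow_add, pow_mul, ha, one_pow, mul_comm (2 ^ k), pow_mul, hb,
    one_pow, inv_one, mul_one]

theorem orderOf_π_of_two {a : X.E} {k : ℕ} (ha : a ^ 2 ^ k = 1) : orderOf (X.π a) = orderOf a :=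
  Nat.dvd_antisymm (orderOf_map_dvd _ _) (orderOf_dvd_of_pow_eq_one (eq_one_of_two hZ (k := k)
    (by rw [← pow_mul, mul_comm, pow_mul, ha, one_pow]) (by rw [map_pow, pow_orderOf_eq_one])))

theorem odd_orderOf_iff {a : X.E} : Odd (orderOf a) ↔ Odd (orderOf (X.π a)) := by
  refine ⟨fun h => h.of_dvd_nat (orderOf_map_dvd _ _), fun h => (h.mul hZ).of_dvd_nat
    (orderOf_dvd_of_pow_eq_one ?_)⟩
  rw [pow_mul]
  exact congrArg Subtype.val (pow_card_eq_one' (G := X.π.ker)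
    (x := ⟨a ^ orderOf (X.π a), by rw [MonoidHom.mem_ker, map_pow, pow_orderOf_eq_one]⟩))

/-- a 2-element lifts to a 2-element -/
theorem exists_lift_two {t : G} {k : ℕ} (ht : t ^ 2 ^ k = 1) :
    ∃ s : X.E, X.π s = t ∧ s ^ 2 ^ k = 1 := by
  obtain ⟨a, rfl⟩ := X.surj t
  obtain ⟨m, hm⟩ : ∃ m, (a ^ 2 ^ k) = ((a ^ 2 ^ k) ^ 2 ^ k) ^ m := by
    have h1 : (2 ^ k).Coprime (orderOf (a ^ 2 ^ k)) := (Nat.coprime_two_left.2
      (odd_of_mem_ker hZ (by rw [MonoidHom.mem_ker, map_pow, ht]))).pow_left k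
    obtain ⟨m, hm⟩ := exists_pow_eq_self_of_coprime h1
    exact ⟨m, hm.symm⟩
  refine ⟨a * ((a ^ 2 ^ k) ^ m)⁻¹, by simp [ht], ?_⟩
  rw [(((Commute.refl a).pow_right _).pow_right _).inv_right.mul_pow, inv_pow, ← pow_mul _ m,
    mul_comm m, pow_mul, ← hm, mul_inv_cancel]

theorem exists_lift_invol {t : G} (ht : orderOf t = 2) : ∃ s : X.E, X.π s = t ∧ orderOf s = 2 := by
  obtain ⟨s, rfl, h⟩ := exists_lift_two hZ (k := 1) (t := t) (by
    rw [pow_one, ← ht, pow_orderOf_eq_one])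
  exact ⟨s, rfl, (orderOf_π_of_two hZ h).symm.trans ht⟩

theorem isConj_of_two {a b : X.E} {k l : ℕ} (ha : a ^ 2 ^ k = 1) (hb : b ^ 2 ^ l = 1)
    (h : IsConj (X.π a) (X.π b)) : IsConj a b := by
  obtain ⟨g, hg⟩ := isConj_iff.1 h
  obtain ⟨g, rfl⟩ := X.surj g
  exact isConj_iff.2 ⟨g, eq_of_two hZ (k := k) (by rw [conj_pow, ha]; simp) hb (by simpa using hg)⟩

theorem isConj_invol (h : ∀ s t : G, orderOf s = 2 → orderOf t = 2 → IsConj s t) (s t : X.E)
    (hs : orderOf s = 2) (ht : orderOf t = 2) : IsConj s t := by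
  have h1 : s ^ 2 ^ 1 = 1 := by rw [pow_one, ← hs, pow_orderOf_eq_one]
  have h2 : t ^ 2 ^ 1 = 1 := by rw [pow_one, ← ht, pow_orderOf_eq_one]
  exact isConj_of_two hZ h1 h2 (h _ _ ((orderOf_π_of_two hZ h1).trans hs)
    ((orderOf_π_of_two hZ h2).trans ht))

theorem injM_of_two {S : Subgroup X.E} (hS : IsPGroup 2 S) {a b : X.E} (ha : a ∈ S) (hb : b ∈ S)
    (h : X.π a = X.π b) : a = b := by
  obtain ⟨k, hk⟩ := hS ⟨a, ha⟩
  obtain ⟨l, hl⟩ := hS ⟨b, hb⟩
  exact eq_of_two hZ (congrArg Subtype.val hk) (congrArg Subtype.val hl) h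

theorem card_map_of_two {S : Subgroup X.E} (hS : IsPGroup 2 S) :
    Nat.card (S.map X.π) = Nat.card S :=
  (Nat.card_congr (Equiv.ofBijective (X.π.subgroupMap S) ⟨fun a b h => Subtype.ext
    (injM_of_two hZ hS a.2 b.2 (congrArg Subtype.val h)), X.π.subgroupMap_surjective S⟩)).symm

/-- a 2-subgroup lifts to the 2-subgroup of all 2-elements above it -/
theorem exists_lift_sub {T : Subgroup G} (hT : IsPGroup 2 T) : ∃ S : Subgroup X.E,
    IsPGroup 2 S ∧ S.map X.π = T ∧ ∀ (s : X.E) (k : ℕ), s ^ 2 ^ k = 1 → X.π s ∈ T → s ∈ S := by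
  have : Finite G := Finite.of_surjective _ X.surj
  obtain ⟨S, hS⟩ := Sylow_exists 2 (T.comap X.π)
  have h1 := hS.map X.π
  rw [map_comap_eq_self_of_surjective X.surj] at h1
  have h2 := h1.eq_self hT
  refine ⟨S, hS.pgroup, h2, fun s k hs h => ?_⟩
  obtain ⟨s', hs', e⟩ := h2.ge h
  obtain ⟨l, hl⟩ := hS.pgroup ⟨s', hs'⟩
  rwa [eq_of_two hZ hs (congrArg Subtype.val hl) e.symm]

theorem syl_of_map {S : Subgroup X.E} (hS : IsPGroup 2 S) (h : Syl 2 (S.map X.π) ⊤) :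
    Syl 2 S ⊤ := by
  have : Finite G := Finite.of_surjective _ X.surj
  obtain ⟨R, hR, h1⟩ := Sylow_superset (le_top (a := S)) hS
  refine hR.of_card_le le_top hS ?_
  rw [← card_map_of_two hZ hR.pgroup, ← card_map_of_two hZ hS,
    h.eq_of_le (hR.pgroup.map _) (map_mono h1) le_top]

theorem mem_centralizer_iff_of_two {S : Subgroup X.E} (hS : IsPGroup 2 S) {g : X.E} :
    g ∈ 𝐂[S] ↔ X.π g ∈ 𝐂[S.map X.π] := by
  refine ⟨fun h => ?_, fun h s hs => ?_⟩
  · rintro _ ⟨s, hs, rfl⟩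
    rw [← map_mul, h s hs, map_mul]
  · obtain ⟨k, hk⟩ := hS ⟨s, hs⟩
    exact (commute_iff_of_two hZ (k := k) (by
      rw [← map_pow, show s ^ 2 ^ k = 1 from congrArg Subtype.val hk, map_one])).2
      (h _ ⟨s, hs, rfl⟩)

theorem mem_normalizer_iff_of_two {S : Subgroup X.E} (hS : IsPGroup 2 S) {g : X.E} :
    g ∈ 𝐍[S] ↔ X.π g ∈ 𝐍[S.map X.π] := by
  have : Finite G := Finite.of_surjective _ X.surj
  refine ⟨fun h => le_normalizer_map X.π ⟨g, h, rfl⟩, fun h => ?_⟩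
  refine mem_normalizer_fintype fun s hs => ?_
  obtain ⟨s', hs', e⟩ := (mem_normalizer_iff.1 h _).1 ⟨s, hs, rfl⟩
  obtain ⟨k, hk⟩ := hS ⟨s, hs⟩
  obtain ⟨l, hl⟩ := hS ⟨s', hs'⟩
  rwa [eq_of_two hZ (k := k) (a := g * s * g⁻¹) (by
    rw [conj_pow, show s ^ 2 ^ k = 1 from congrArg Subtype.val hk]; simp)
    (congrArg Subtype.val hl) (by simpa using e.symm)]

/-- a Klein Sylow 2-subgroup lifts to a Klein Sylow 2-subgroup -/
theorem exists_lift_klein {T : Subgroup G} (hT : Syl 2 T ⊤) (hK : Klein T) :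
    ∃ S : Subgroup X.E, Syl 2 S ⊤ ∧ Klein S ∧ S.map X.π = T := by
  obtain ⟨S, h1, rfl, -⟩ := exists_lift_sub hZ hT.pgroup
  refine ⟨S, syl_of_map hZ h1 hT, ⟨(card_map_of_two hZ h1).symm.trans hK.1, fun t ht => ?_⟩, rfl⟩
  exact injM_of_two hZ h1 (S.mul_mem ht ht) S.one_mem (by
    rw [map_mul, map_one]; exact hK.2 _ ⟨t, ht, rfl⟩)

end CExt

end Cfsg.Gag
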