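import Cfsg.Agent.Gag.M1A
import Cfsg.Agent.CT.Triple
import Mathlib.GroupTheory.FiniteAbelian.Duality

/-! # Reduction of Gagola's theorem to the core statement -/

set_option autoImplicit false

namespace Cfsg.Gag

open Subgroup Cfsg.FT

universe u

/-- the hypothesis on Sylow subgroups -/
def Sh (G : Type u) [Group G] : Prop :=
  ∀ p : ℕ, p.Prime → p ^ 6 ∣ Nat.card G → ∀ P : Subgroup G, IsPGroup p P → IsMulCommutative P

theorem Sh.section {G A H : Type u} [Group G] [Group A] [Finite A] [Group H] (h : Sh G)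
    (f : A →* G) {g : A →* H} (hg : Function.Surjective g) (hk : f.ker ≤ g.ker) : Sh H := by
  intro p hp hd P hP
  have := Fact.mk hp
  have h1 : Nat.card H ∣ Nat.card G := by
    have h2 := index_dvd_of_le hk
    rw [index_ker, index_ker, MonoidHom.range_eq_top.2 hg, card_top] at h2
    exact h2.trans (card_subgroup_dvd_card _)
  obtain ⟨Q, hQ⟩ := hP.exists_le_sylow
  obtain ⟨S, rfl⟩ := Sylow.mapSurjective_surjective hg p Q
  have h3 := h p hp (hd.trans h1) _ (S.isPGroup'.map f)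
  refine abelian_iff_forall.2 fun x hx y hy => ?_
  obtain ⟨x, hx', rfl⟩ := hQ hx
  obtain ⟨y, hy', rfl⟩ := hQ hy
  have h4 : x * y * (y * x)⁻¹ ∈ g.ker := hk (by
    rw [MonoidHom.mem_ker, map_mul, map_inv, map_mul, map_mul,
      comm_of_abelian h3 (mem_map_of_mem f hx') (mem_map_of_mem f hy'), mul_inv_cancel])
  rwa [MonoidHom.mem_ker, map_mul, map_inv, mul_inv_eq_one, map_mul, map_mul] at h4

/-- a fully ramified character gives a nondegenerate central extension -/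
theorem exists_cext {Γ : Type u} [Group Γ] [Finite Γ] {N : Subgroup Γ} [N.Normal] [Fintype N]
    {θ : IrrCharacter N} (hinv : charInertia θ.1 = ⊤)
    (hu : ∀ χ χ' : IrrCharacter Γ, classInner (fun n : N => χ.1 n) θ.1 ≠ 0 →
      classInner (fun n : N => χ'.1 n) θ.1 ≠ 0 → χ = χ') : ∃ X : CExt (Γ ⧸ N), X.cp.ND ⊤ := by
  obtain ⟨T⟩ := nonempty_tripleIso hinv
  have := Fintype.ofFinite T.ϖ.ker
  refine ⟨⟨T.E, T.ϖ, T.ϖ_surjective, T.ker_le_center, T.lam, T.lam_injective⟩,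
    (CExt.nd_top_iff _).2 fun χ χ' h h' => ?_⟩
  exact congrArg Subtype.val (T.corr.injective (a₁ := ⟨χ, (T.isOver_iff χ).2 h⟩)
    (a₂ := ⟨χ', (T.isOver_iff χ').2 h'⟩) (Subtype.ext (hu _ _ (T.corr _).2 (T.corr _).2)))

variable {G : Type u} [Group G] [Finite G]

theorem hyp_of_sh {X : CExt G} (h : X.cp.ND ⊤) (hs : Sh G) : Hyp X.cp where
  top := h
  syl p hp P hP := stSylND G X ⊤ P p hp h hP
  shape p hp P hP := by
    have := Fact.mk hp
    refine or_iff_not_imp_left.2 fun h1 => ?_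
    obtain ⟨e, he⟩ := CExt.ND.isSquare (stSylND G X ⊤ P p hp h hP)
    obtain ⟨k, hk⟩ := hP.pgroup.exists_card_eq
    obtain ⟨j, -, rfl⟩ := (Nat.dvd_prime_pow hp).1
      ((dvd_pow_self e two_ne_zero).trans (he.trans hk).dvd)
    rw [← pow_mul] at he
    have h2 : ¬ 3 ≤ j := fun h2 => h1 (hs p hp (((pow_dvd_pow p (by omega)).trans he.dvd).trans
      (card_subgroup_dvd_card P)) P hP.pgroup)
    have h3 : ¬ j ≤ 1 := fun h3 => h1 (p2group_abelian (p := p)
      (he.symm.dvd.trans (pow_dvd_pow p (by omega))))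
    obtain rfl : j = 2 := by omega
    exact he.symm

omit [Finite G] in
/-- the radical of the pairing between a minimal normal subgroup and a normal subgroup -/
theorem CP.rad_cases (X : CP G) {V C : Subgroup G} (hV : MinNormalIn V ⊤) (hC : ⊤ ≤ 𝐍[C])
    (hVC : C ≤ 𝐂[V]) : (∀ v ∈ V, (∀ c ∈ C, X.β c v = 1) → v = 1) ∨ ∀ v ∈ V, ∀ c ∈ C, X.β c v = 1 := by
  have hc : ∀ c ∈ C, ∀ v ∈ V, Commute c v := fun c hc v hv => (hVC hc v hv).symm
  have h1 : ∀ v, v ∈ V ⊓ ⨅ c ∈ C, X.ker c ↔ v ∈ V ∧ ∀ c ∈ C, X.β c v = 1 := fun v => by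
    simp only [mem_inf, mem_iInf, X.mem_ker]
    exact and_congr_right fun hv => ⟨fun h c hc => (h c hc).2, fun h c hc' => ⟨hc c hc' v hv, h c hc'⟩⟩
  refine (hV.eq_or (X := V ⊓ ⨅ c ∈ C, X.ker c) inf_le_left (normsP.2 fun g _ v hv => ?_)).imp
    (fun h v hv h2 => mem_bot.1 (h.le ((h1 v).2 ⟨hv, h2⟩))) fun h v hv => ((h1 v).1 (h.ge hv)).2
  rw [h1] at hv ⊢
  refine ⟨normsP.1 hV.norm g trivial v hv.1, fun c hc' => ?_⟩
  have h2 := normsP.1 hC g⁻¹ trivial c hc'
  have h3 := X.conj g (hc _ h2 v hv.1)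
  rw [hv.2 _ h2] at h3
  rw [← h3]
  congr 1
  group

theorem CP.ND.not_isotropic {X : CP G} {P V : Subgroup G} {p : ℕ} [hp : Fact p.Prime]
    (h : X.ND P) (hP : IsPGroup p P) (hs : IsMulCommutative P ∨ Nat.card P = p ^ 4) (hVP : V ≤ P)
    (hn : P ≤ 𝐍[V]) (h0 : V ≠ ⊥) (hV : IsMulCommutative V)
    (h1 : ∀ v ∈ V, ∀ c ∈ 𝐂[V], X.β c v = 1) : False := by
  obtain ⟨x, hx, hx1, h2⟩ : ∃ x ∈ V, x ≠ 1 ∧ P ⊓ 𝐂₁[x] ≤ 𝐂[V] := by
    by_cases h2 : P ≤ 𝐂[V]
    · obtain ⟨x, hx⟩ := ne_bot_iff_exists_ne_one.1 h0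
      exact ⟨x, x.2, fun e => hx (Subtype.ext e), inf_le_left.trans h2⟩
    have h3 := hs.resolve_left fun h3 => h2 (sub_abelian_cent h3 hVP)
    obtain ⟨x, hx, h4⟩ := SetLike.not_le_iff_exists.1 fun h4 => h2 (centsC.1 h4)
    refine ⟨x, hx, fun e => h4 (e ▸ one_mem _), ?_⟩
    by_contra h5
    have hp' : ∀ {A : Subgroup G}, A ≤ P → IsPGroup p A := fun hA => hP.to_le hA
    have h6 : V ≤ P ⊓ 𝐂₁[x] := le_inf hVP (le_cent1.2 (abelian_iff.1 hV hx))
    have h7 : V ⊓ 𝐂[P] ⊔ ⟪x⟫ ≤ V := sup_le inf_le_left (zpowers_le.2 hx)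
    have k0 := card_mul_le_of_lt (hp' (inf_le_left.trans hVP))
      (bot_lt_iff_ne_bot.2 (nontrivial_cent_pgroup hP (hp' hVP) hn h0))
    have k1 := card_mul_le_of_lt (hp' (h7.trans hVP)) (K := V ⊓ 𝐂[P])
      (lt_of_le_of_ne le_sup_left fun e => h4 (e.ge (mem_sup_right (mem_zpowers x))).2)
    have k2 := card_mul_le_of_lt (hp' hVP) (lt_of_le_of_ne h7 fun e => h5 (e ▸ centsY
      (inf_le_left.trans (centsC.1 inf_le_right)) (cent_cycle x ▸ inf_le_right)))
    have k3 := card_mul_le_of_lt (hp' inf_le_left)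
      (lt_of_le_of_ne h6 fun e => h5 (e ▸ abelian_iff.1 hV))
    have k4 := card_mul_le_of_lt hP (K := P ⊓ 𝐂₁[x])
      (lt_of_le_of_ne inf_le_left fun e => h4 (le_cent1.1 (e.ge.trans inf_le_right)))
    rw [card_bot] at k0
    have k5 := (Nat.mul_le_mul_right p ((Nat.mul_le_mul_right p ((Nat.mul_le_mul_right p
      ((Nat.mul_le_mul_right p k0).trans k1)).trans k2)).trans k3)).trans k4
    rw [h3, show 1 * p * p * p * p * p = p ^ 5 by ring,
      Nat.pow_le_pow_iff_right hp.out.one_lt] at k5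
    omega
  obtain ⟨y, hy, h3, h4⟩ := h x (hVP hx) hx1
  exact h4 ((X.symm_eq_one h3.symm).2 (h1 x hx y (h2 ⟨hy, mem_cent1.2 h3.symm⟩)))

/-- the pairing between `C(V)` and `V` -/
def CP.pair (X : CP G) (V : Subgroup G) : 𝐂[V] →* V →* ℂˣ where
  toFun c := (X.psi c).comp (inclusion (le_cent1.2 c.2))
  map_one' := MonoidHom.ext fun v => X.one_left v
  map_mul' a b := MonoidHom.ext fun v => X.mul_left (a.2 v v.2).symm (b.2 v v.2).symm

theorem CP.pair_surjective (X : CP G) {V : Subgroup G} (hV : IsMulCommutative V)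
    (h : ∀ v ∈ V, (∀ c ∈ 𝐂[V], X.β c v = 1) → v = 1) : Function.Surjective (X.pair V) := by
  letI : CommGroup V := IsMulCommutative.instCommGroup
  have h1 : (CommGroup.subgroupOrderIsoSubgroupMonoidHom V ℂ).symm
      (OrderDual.toDual (X.pair V).range) = ⊥ := eq_bot_iff.2 fun v hv => Subtype.ext (h v v.2
    fun c hc => (CommGroup.mem_subgroupOrderIsoSubgroupMonoidHom_symm_iff ℂ _ v).1 hv _
      ⟨⟨c, hc⟩, rfl⟩)
  rw [OrderIso.symm_apply_eq, OrderIso.map_bot] at h1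
  exact MonoidHom.range_eq_top.1 h1

theorem isSolvable_of_stab {X : CExt G} (hX : Hyp X.cp) {V : Subgroup G} (hV : MinNormalIn V ⊤)
    (hc : IsMulCommutative V) {η : IrrCharacter (V.comap X.π)} (hη : rmult η X.theta ≠ 0)
    (hs : Group.IsSolvable (ezStab η)) : Group.IsSolvable G := by
  have hVn : V.Normal := normalizer_eq_top_iff.1 (top_le_iff.1 hV.norm)
  have hN : ∀ g : X.E, g ∈ normalizer (V.comap X.π : Set X.E) := fun g => by
    rw [normalizer_eq_top]; trivial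
  have hT : Group.IsSolvable ((ezStab η).map X.π) :=
    Group.isSolvable_of_surjective (X.π.subgroupMap_surjective _)
  rcases X.cp.rad_cases hV hV.norm (abelian_iff.1 hc) with h1 | h1
  · have h2 : X.cp.ND V := fun v hv hv1 => by
      by_contra! h2
      exact hv1 (h1 v hv fun c hc' => (X.cp.symm_eq_one (comm_of_abelian hc hv hc')).2
        (h2 c hc' (comm_of_abelian hc hv hc')))
    refine Group.isSolvable_of_surjective (f := X.π.comp (ezStab η).subtype) fun g => ?_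
    obtain ⟨g, rfl⟩ := X.surj g
    refine ⟨⟨g, (η.cj_eq_iff (hN g)).1 ((X.nd_iff V).1 h2 _ _ ?_ hη)⟩, rfl⟩
    rwa [rmult_cj_left (X.ker_le_comap V) _ _ _ (X.le_ezStab_theta ⊤ trivial)
      (X.le_norm_ker ⊤ trivial)]
  obtain ⟨p, hp, hVp⟩ := minnormal_solvable_abelem hV (abelian_sol hc)
  have := Fact.mk hp
  rcases X.cp.rad_cases hV (norms_cent hV.norm) le_rfl with h2 | h2
  swap
  · obtain ⟨P, hP, hVP⟩ := Sylow_superset le_top (abelem_pgroup hVp)
    exact ((hX.syl p hp P hP).not_isotropic hP.pgroup (hX.shape p hp P hP) hVP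
      (le_top.trans hV.norm) hV.ne_bot hc h2).elim
  have hK : IsMulCommutative (V.comap X.π) := abelian_iff_forall.2 fun a ha b hb =>
    (X.cp_β_eq_one (comm_of_abelian hc ha hb)).1 (h1 _ hb _ ha)
  obtain ⟨μ, rfl⟩ := η.exists_eq_ofHom η.charDegree_eq_one_of_comm
  have hμ : ∀ z : X.π.ker, μ ⟨z, X.ker_le_comap V z.2⟩ = X.lam z := fun z =>
    Units.ext ((IrrCharacter.extends_iff (X.ker_le_comap V)).1
      (IrrCharacter.extends_of_charDegree_le' (X.ker_le_comap V) hη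
        (by rw [IrrCharacter.charDegree_ofHom]; exact X.theta.charDegree_pos)) z)
  have hm : ∀ (g : X.E) (k : V.comap X.π), g * k * g⁻¹ ∈ V.comap X.π := fun g k =>
    Normal.conj_mem inferInstance _ k.2 g
  have h3 : ∀ g : G, ∃ t ∈ (ezStab (IrrCharacter.ofHom μ)).map X.π, ∃ c ∈ 𝐂[V], g = t * c := by
    intro g
    obtain ⟨g, rfl⟩ := X.surj g
    have hs : Function.Surjective (X.π.subgroupComap V) := (X.sub V).surj
    obtain ⟨⟨c, hc'⟩, h3⟩ := X.cp.pair_surjective hc h2 ((X.π.subgroupComap V).liftOfSurjective hs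
      ⟨μ.comp (MulAut.conjNormal g).toMonoidHom / μ, fun k hk => by
        have h4 := mem_center_iff.1 (X.cen (congrArg Subtype.val hk)) g
        rw [MonoidHom.mem_ker, MonoidHom.div_apply, div_eq_one]
        exact congrArg μ (Subtype.ext (mul_inv_eq_iff_eq_mul.2 h4))⟩)
    obtain ⟨c, rfl⟩ := X.surj c
    have h4 : ∀ k : V.comap X.π, μ ⟨_, hm c k⟩ = μ ⟨_, hm g k⟩ := fun k => by
      have h4 := DFunLike.congr_fun h3 (X.π.subgroupComap V k)
      rw [MonoidHom.liftOfRightInverse_comp_apply] at h4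
      have h5 : Commute (X.π c) (X.π k) := (hc' _ k.2).symm
      have h6 := ((hμ _).trans (X.cp_β h5).symm).trans h4
      rw [MonoidHom.div_apply, eq_div_iff_mul_eq', ← map_mul] at h6
      exact (congrArg μ (Subtype.ext (by simp))).trans h6
    refine ⟨_, mem_map_of_mem _ (mem_ezStab_of_normalizer (hN (g * c⁻¹)) fun x hx => ?_), _, hc',
      by rw [← map_mul, inv_mul_cancel_right]⟩
    have h5 := h4 ⟨_, hm c⁻¹ ⟨x, hx⟩⟩
    rw [IrrCharacter.ez_of_mem _ hx, IrrCharacter.ez_of_mem _ (hm _ ⟨x, hx⟩),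
      IrrCharacter.ofHom_apply, IrrCharacter.ofHom_apply]
    exact congrArg Units.val (((congrArg μ (Subtype.ext (by simp [mul_assoc]))).trans h5.symm).trans
      (congrArg μ (Subtype.ext (by simp [mul_assoc]))))
  have h4 : Group.IsSolvable (X.cp.pair V).ker := Group.isSolvable_of_isSolvable_injective
    (f := ((𝐂[V]).subtype.comp (X.cp.pair V).ker.subtype).codRestrict
      ((ezStab (IrrCharacter.ofHom μ)).map X.π) fun ⟨⟨c, hc'⟩, h4⟩ => by
        obtain ⟨c, rfl⟩ := X.surj c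
        exact mem_map_of_mem _ (centralizer_le_ezStab _ fun k hk => ((X.cp_β_eq_one
          (hc' _ hk).symm).1 (DFunLike.congr_fun (MonoidHom.mem_ker.1 h4) ⟨_, hk⟩)).symm))
    fun a b h => Subtype.ext (Subtype.ext (Subtype.mk.inj h))
  have h5 : Group.IsSolvable 𝐂[V] := Group.isSolvable_of_ker_le_range (X.cp.pair V).ker.subtype
    (X.cp.pair V) (range_subtype _).ge
  have h6 : Group.IsSolvable (G ⧸ 𝐂[V]) := Group.isSolvable_of_surjective
    (f := (QuotientGroup.mk' 𝐂[V]).comp ((ezStab (IrrCharacter.ofHom μ)).map X.π).subtype)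
    fun g => by
      obtain ⟨g, rfl⟩ := QuotientGroup.mk_surjective g
      obtain ⟨t, ht, c, hc', rfl⟩ := h3 g
      exact ⟨⟨t, ht⟩, (QuotientGroup.mk_mul_of_mem t hc').symm⟩
  exact Group.isSolvable_of_ker_le_range (𝐂[V]).subtype (QuotientGroup.mk' 𝐂[V]) (by simp)

theorem isSolvable_of_core (hc : StCore.{u}) (n : ℕ) : ∀ (G : Type u) [Group G] [Finite G]
    (X : CExt G), Nat.card G = n → X.cp.ND ⊤ → Sh G → Group.IsSolvable G := by
  induction n using Nat.strong_induction_on with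
  | _ n ih =>
  intro G _ _ X hn h hs
  rcases subsingleton_or_nontrivial G with h0 | h0
  · infer_instance
  have hX := hyp_of_sh h hs
  obtain ⟨N, hN, hN0, hNc⟩ := hc G X hX
  obtain ⟨V, hV, hVN⟩ := minnormal_exists hN0 (A := ⊤) (normalizer_eq_top N).ge
  have hVn : V.Normal := normalizer_eq_top_iff.1 (top_le_iff.1 hV.norm)
  have hVc := abelianS hVN hNc
  obtain ⟨η, hη⟩ := exists_rmult_over (X.ker_le_comap V) X.theta
  refine isSolvable_of_stab hX hV hVc hη ?_
  have h1 := ((X.nd_iff ⊤).1 h).inertia (X.ker_le_comap V) (comap_mono le_top)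
    (le_top.trans (normalizer_eq_top _).ge) hη
  rw [comap_top, top_inf_eq] at h1
  have := Fintype.ofFinite ((V.comap X.π).subgroupOf (ezStab η))
  obtain ⟨Y, hY⟩ := exists_cext (charInertia_subgroupOf_eq_top' (le_ezStab η) le_rfl)
    fun χ χ' h2 h3 => h1 χ χ' ((rmult_ne_zero_iff_subgroupOf (le_ezStab η)).2 h2)
      ((rmult_ne_zero_iff_subgroupOf (le_ezStab η)).2 h3)
  have h2 := ih _ (by
    refine (Nat.le_of_dvd (Nat.pos_of_ne_zero index_ne_zero_of_finite)
      (relIndex_dvd_index_of_normal (V.comap X.π) (ezStab η))).trans_lt ?_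
    rw [index_comap_of_surjective _ X.surj, ← hn, ← V.card_mul_index]
    exact lt_mul_of_one_lt_left (Nat.pos_of_ne_zero index_ne_zero_of_finite)
      ((one_lt_card_iff_ne_bot V).2 hV.ne_bot)) _ Y rfl hY
    (hs.section (X.π.comp (ezStab η).subtype) (QuotientGroup.mk'_surjective _) fun x hx => by
      rw [QuotientGroup.ker_mk']
      exact X.ker_le_comap V hx)
  have h3 : Group.IsSolvable X.π.ker := abelian_sol (abelianS X.cen inferInstance)
  have h4 := abelian_sol hVc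
  have h5 : Group.IsSolvable (V.comap X.π) := Group.isSolvable_of_ker_le_range
    (inclusion (X.ker_le_comap V)) (X.π.subgroupComap V) fun x hx =>
      ⟨⟨x, congrArg Subtype.val hx⟩, rfl⟩
  exact Group.isSolvable_of_ker_le_range (inclusion (le_ezStab η))
    (QuotientGroup.mk' ((V.comap X.π).subgroupOf (ezStab η))) fun x hx => by
      rw [QuotientGroup.ker_mk'] at hx
      exact ⟨⟨x, hx⟩, rfl⟩

/-- piece M1 -/
theorem main_of_core (hc : StCore.{u}) {H : Type u} [Group H] [Finite H] (Z : Subgroup H) [Z.Normal]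
    (χ : Cfsg.IrrCharacter H) (hfr : ∃ (θ : Cfsg.IrrCharacter ↥Z) (e : ℕ), e ^ 2 = Z.index ∧
      ∀ z : ↥Z, (χ : H → ℂ) z = (e : ℂ) * (θ : ↥Z → ℂ) z)
    (hab : ∀ p : ℕ, p.Prime → p ^ 6 ∣ Z.index → ∀ P : Sylow p (H ⧸ Z), IsMulCommutative P) :
    Group.IsSolvable (H ⧸ Z) := by
  obtain ⟨θ, e, he, h⟩ := hfr
  have := Fintype.ofFinite Z
  obtain ⟨hinv, hu, -⟩ := uniqOver_top_of_fullyRamified he h
  obtain ⟨X, hX⟩ := exists_cext (θ := θ) (by rw [← ezStab_eq_charInertia]; exact top_le_iff.1 hinv)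
    fun χ χ' h1 h2 => IrrCharacter.toTop.injective
      (hu _ _ (rmult_toTop_ne_zero_iff.2 h1) (rmult_toTop_ne_zero_iff.2 h2))
  refine isSolvable_of_core hc _ _ X rfl hX fun p hp hd P hP => ?_
  obtain ⟨Q, hQ⟩ := hP.exists_le_sylow
  exact abelianS hQ (hab p hp hd Q)

end Cfsg.Gag
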