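import Cfsg.Agent.Gag.Defs

/-!
# S4562: statements of the pieces of the short endgame (plan: `docs/GagShort.md`)
-/

set_option autoImplicit false

namespace Cfsg.Gag

open Subgroup Cfsg.FT
open scoped Pointwise

universe u

variable {G : Type u} [Group G]

/-- strongly real elements `x ≠ 1` of odd order are bad inside `C(u)` -/
def SRIrr (X : CP G) : Prop := ∀ i x u : G, orderOf i = 2 → x ≠ 1 → Odd (orderOf x) →
  i * x * i⁻¹ = x⁻¹ → u * u = 1 → Commute u x → Commute u i →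
    ∃ y, Commute u y ∧ Commute x y ∧ X.β x y ≠ 1

/-- all elements `x ≠ 1` of odd order are bad inside `C(u)` -/
def AllIrr (X : CP G) : Prop := ∀ x u : G, x ≠ 1 → Odd (orderOf x) → u * u = 1 → Commute u x →
  ∃ y, Commute u y ∧ Commute x y ∧ X.β x y ≠ 1

/-- piece V (characters) -/
def StV : Prop := ∀ (G : Type u) [Group G] [Finite G] (X : CExt G) (T : Subgroup G),
  Syl 2 T ⊤ → Klein T → (∀ s t : G, orderOf s = 2 → orderOf t = 2 → IsConj s t) → SRIrr X.cp →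
    commutator G ≠ ⊤

/-- piece Cnt (characters) -/
def StCnt : Prop := ∀ (G : Type u) [Group G] [Finite G] (X : CExt G) (T : Subgroup G),
  Syl 2 T ⊤ → Klein T → (∀ s t : G, orderOf s = 2 → orderOf t = 2 → IsConj s t) → AllIrr X.cp →
    False

/-- piece E (characters) -/
def StE : Prop := ∀ (G : Type u) [Group G] [Finite G] (X : CExt G) (F : Subgroup G) (c y : G),
  Odd (Nat.card F) → c ∈ 𝐍[F] → c ^ 3 ∈ F →
  (∀ e ∈ F, e ≠ 1 → ∃ g ∈ F ⊔ ⟪c⟫, Commute e g ∧ X.cp.β e g ≠ 1) →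
  y ∈ F → y ≠ 1 → (∀ g ∈ F, Commute y g → X.cp.β y g = 1) →
    (∃ m, Nat.card F = 3 * m ^ 2) ∧ ∃ k, orderOf y = 3 ^ k

/-- the configuration `P = C₂ × D₈` with both elementary subgroups `A`, `B` of order 8 fused -/
structure Cfg (X : CP G) (Γ P A B : Subgroup G) (z c d : G) : Prop where
  index : Γ.index = 2
  cΓ : c ∉ Γ
  zΓ : z ∈ Γ
  syl : Syl 2 P ⊤
  card : Nat.card P = 16
  cardA : Nat.card A = 8
  cardB : Nat.card B = 8
  leA : A ≤ P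
  leB : B ≤ P
  sqA : ∀ a ∈ A, a * a = 1
  sqB : ∀ b ∈ B, b * b = 1
  invol : ∀ p ∈ P, p * p = 1 → p ∈ A ∨ p ∈ B
  inf : ∀ x, x ∈ A ⊓ B ↔ x = 1 ∨ x = z ∨ x = c ∨ x = d
  z1 : z ≠ 1
  dcz : d = c * z
  comm : ∀ a ∈ A, a ∉ B → ∀ b ∈ B, b ∉ A → a * b * a⁻¹ = b * z
  βc : ∀ p ∈ P, X.β c p = 1 ↔ p ∈ B
  βd : ∀ p ∈ P, X.β d p = 1 ↔ p ∈ A
  ncd : ¬ IsConj c d
  fusA : ∃ g ∈ 𝐍[A], Odd (orderOf g) ∧ g ∉ 𝐂[A]
  fusB : ∃ g ∈ 𝐍[B], Odd (orderOf g) ∧ g ∉ 𝐂[B]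

theorem Cfg.symm {X : CP G} {Γ P A B : Subgroup G} {z c d : G} (h : Cfg X Γ P A B z c d) :
    Cfg X Γ P B A z d c := by
  have hz : z * z = 1 := h.sqA z ((h.inf z).2 (by simp)).1
  refine ⟨h.index, fun e => h.cΓ ?_, h.zΓ, h.syl, h.card, h.cardB, h.cardA, h.leB, h.leA, h.sqB,
    h.sqA, fun p hp e => (h.invol p hp e).symm, fun x => ?_, h.z1, ?_, fun b hb hb' a ha ha' => ?_,
    h.βd, h.βc, fun e => h.ncd e.symm, h.fusB, h.fusA⟩
  · rwa [h.dcz, Γ.mul_mem_cancel_right h.zΓ] at e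
  · rw [inf_comm, h.inf]; tauto
  · rw [h.dcz, mul_assoc, hz, mul_one]
  · have e := h.comm a ha ha' b hb hb'
    have hzA : z ∈ A := ((h.inf z).2 (by simp)).1
    have h1 : z * a = a * z := by
      rw [← inv_eq_of_mul_eq_one_right (h.sqA _ (A.mul_mem hzA ha)), mul_inv_rev,
        inv_eq_of_mul_eq_one_right hz, inv_eq_of_mul_eq_one_right (h.sqA a ha)]
    rw [← h1, inv_eq_of_mul_eq_one_right (h.sqB b hb)]
    calc b * a * b = b * (a * b * a⁻¹) * a := by group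
      _ = _ := by rw [e, ← mul_assoc, h.sqB b hb, one_mul]

/-- piece NoReg (uses `StE`) -/
def StNoReg : Prop := ∀ (G : Type u) [Group G] [Finite G] (X : CExt G) (Γ P A B : Subgroup G)
  (z c d y : G), Hyp X.cp → Cfg X.cp Γ P A B z c d → y ∈ 𝐂[A] → y ≠ 1 → Odd (orderOf y) →
    ∃ g ∈ 𝐂[A], Commute y g ∧ X.cp.β y g ≠ 1

/-- piece Cfg (uses `StNoReg`, `StCnt`) -/
def StCfg : Prop := ∀ (G : Type u) [Group G] [Finite G] (X : CExt G) (Γ P A B : Subgroup G)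
  (z c d : G), Hyp X.cp → Cfg X.cp Γ P A B z c d → False

/-- piece Klein (uses `StV`, `StConj`) -/
def StKlein : Prop := ∀ (G : Type u) [Group G] [Finite G] (X : CExt G) (S P : Subgroup G),
  Hyp X.cp → Comp S → Syl 2 P ⊤ → Klein (P ⊓ S) → False

/-- piece Dih (uses `StConj`) -/
def StDih : Prop := ∀ (G : Type u) [Group G] [Finite G] (X : CP G) (S P : Subgroup G) (f x w : G),
  Hyp X → Comp S → Syl 2 P ⊤ → D8 (P ⊓ S) f x → w ∉ S → w * w = 1 → w ∈ 𝐂[P ⊓ S] →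
    P = (P ⊓ S) ⊔ ⟪w⟫ → ∃ (Γ A B : Subgroup G) (z c d : G), Cfg X Γ P A B z c d

end Cfsg.Gag
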