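import Cfsg.Agent.Gag.ThreeA
import Cfsg.Agent.Gag.Core
import Cfsg.Agent.Grp.PFour

/-!
# Piece Three
-/

set_option autoImplicit false
set_option linter.style.haveILetI false

namespace Cfsg.Gag.Th

open Subgroup Cfsg.FT Cfsg.Gag.Fin5
open scoped Pointwise

universe u

variable {G : Type u} [Group G] [Finite G] {X : CP G} {S A P Q B : Subgroup G} {c : G}

theorem cube_roots {ω η : ℂˣ} (h3 : ω ^ 3 = 1) (h1 : ω ≠ 1) (h : η ^ 3 = 1) :
    η = 1 ∨ η * ω⁻¹ = 1 ∨ η * ω = 1 := by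
  have a3 : (ω : ℂ) ^ 3 = 1 := by simpa using congrArg Units.val h3
  have b3 : (η : ℂ) ^ 3 = 1 := by simpa using congrArg Units.val h
  have a1 : (ω : ℂ) - 1 ≠ 0 := fun e => h1 (Units.ext (sub_eq_zero.1 e))
  have a2 : (ω : ℂ) ^ 2 + ω + 1 = 0 := mul_left_cancel₀ a1 (by linear_combination a3)
  have e : ((η : ℂ) - 1) * ((η - ω) * (η * ω - 1)) = 0 := by
    linear_combination (ω : ℂ) * b3 + (-(η : ℂ) ^ 2 + η) * a2
  rcases mul_eq_zero.1 e with e | e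
  · exact Or.inl (Units.ext (sub_eq_zero.1 e))
  · rcases mul_eq_zero.1 e with e | e
    · exact Or.inr (Or.inl (mul_inv_eq_one.2 (Units.ext (sub_eq_zero.1 e))))
    · exact Or.inr (Or.inr (Units.ext (sub_eq_zero.1 e)))

omit [Finite G] in
theorem conj_cycle3' {v u : G} (h3 : v ^ 3 = 1) (hu : u ∈ ⟪v⟫) : u ^ 3 = 1 := by
  obtain ⟨k, rfl⟩ := hu
  dsimp only
  rw [← zpow_natCast, ← zpow_mul, mul_comm, zpow_mul, zpow_natCast, h3, one_zpow]

theorem exists_B (hP : Nat.card P = 3 ^ 4) (nab : ¬ IsMulCommutative P) :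
    (∃ B ≤ P, IsMulCommutative B ∧ Nat.card B = 27) ∧
      Nat.card ↥⁅P, P⁆ * Nat.card ↥𝐙[P] = 27 := by
  obtain ⟨B, -, h1, h2⟩ := exists_comm_index_eq_of_card_eq_pow_four hP nab
  refine ⟨⟨B.map P.subtype, map_subtype_le B, abelian_map _ h1, ?_⟩, ?_⟩
  · have := B.card_mul_index
    rw [h2] at this
    rw [card_map_subtype]
    omega
  · rw [← map_subtype_commutator, ← map_subtype_center, card_map_subtype, card_map_subtype]
    exact card_commutator_mul_card_center_of_card_eq_pow_four hP nab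

theorem not_nd_27 (hB : IsMulCommutative B) (hc : Nat.card B = 27) : ¬ X.ND B := fun h => by
  have hA := h.af hB
  obtain ⟨v, hv, ov⟩ := Cauchy (H := B) Nat.prime_three (by rw [hc]; decide)
  have hv' := zpowers_le.2 hv
  have h1 := hA.card_perp hv'
  rw [Nat.card_zpowers, ov, hc] at h1
  have h2 : ⟪v⟫ ≤ hA.perp ⟪v⟫ := zpowers_le.2 ((hA.mem_perp_cycle hv).2 ⟨hv, X.alt v⟩)
  have h3 := card_mul_relIndex h2
  rw [Nat.card_zpowers, ov] at h3
  obtain ⟨w, hw, hwv⟩ := SetLike.not_le_iff_exists.1 fun e : hA.perp ⟪v⟫ ≤ ⟪v⟫ => by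
    have := card_le_of_le e
    rw [Nat.card_zpowers, ov] at this
    omega
  have h4 := (p_index_maximal h2 (by rw [show ⟪v⟫.relIndex (hA.perp ⟪v⟫) = 3 by omega]; decide)).sup_eq
    (zpowers_le.2 hw) (mt zpowers_le.1 hwv)
  have h5 : hA.perp ⟪v⟫ ≤ hA.perp (⟪v⟫ ⊔ ⟪w⟫) := by
    rw [hA.perp_sup hv' (zpowers_le.2 hw.1)]
    refine le_inf le_rfl (h4.ge.trans (sup_le ?_ (zpowers_le.2 ((hA.mem_perp_cycle hw.1).2
      ⟨hw.1, X.alt w⟩))))
    exact (hA.le_perp_comm hv' (zpowers_le.2 hw.1)).2 (zpowers_le.2 hw)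
  have h6 := hA.card_perp (hA.perp_le ⟪v⟫)
  have h7 := card_le_of_le (h4 ▸ h5)
  rw [hA.perp_perp hv', Nat.card_zpowers, ov] at h7
  omega

/-- central type groups of order 81 and maximal class -/
structure MC (X : CP G) (P B : Subgroup G) (c : G) : Prop where
  cen : 𝐙[P] = ⟪c⟫
  c3 : c ^ 3 = 1
  ab : IsMulCommutative B
  card : Nat.card B = 27
  ker : P ⊓ X.ker c = B
  uniq : ∀ B' ≤ P, IsMulCommutative B' → Nat.card B' = 27 → B' = B
  rad : ∀ u ∈ B, (∀ b ∈ B, X.β u b = 1) → u ∈ ⟪c⟫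
  tr : ∀ x ∈ P, x ∉ B → ∃ e ∈ P, e * x * e⁻¹ * x⁻¹ ∈ ⟪c⟫ ∧ ¬ Commute e x
  norm : 𝐍[P] ≤ 𝐂₁[c]

theorem exists_MC (hP : Nat.card P = 3 ^ 4) (nab : ¬ IsMulCommutative P) (hnd : X.ND P)
    (hZ : Nat.card ↥𝐙[P] = 3) : ∃ B c, MC X P B c := by
  obtain ⟨⟨B, hBP, hB, cB⟩, hE⟩ := exists_B hP nab
  have pP : IsPGroup 3 P := IsPGroup.of_card hP
  have iB : B.relIndex P = 3 := by have := card_mul_relIndex hBP; rw [cB] at this; omega
  have mB := p_index_maximal hBP (iB ▸ Nat.prime_three)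
  have nB := index_p_normal pP hBP iB
  have cm : ∀ a ∈ B, ∀ b ∈ B, Commute a b := fun a ha b hb => comm_of_abelian hB ha hb
  have CB : ∀ u ∈ B, ∀ x ∈ P, x ∉ B → Commute u x → u ∈ 𝐙[P] := fun u hu x hx hxB h => by
    refine ⟨hBP hu, ?_⟩
    rw [← mB.sup_eq (zpowers_le.2 hx) (mt zpowers_le.1 hxB), centY, cent_cycle]
    exact ⟨abelian_iff.1 hB hu, mem_cent1.2 h⟩
  have hZB : 𝐙[P] ≤ B := fun z hz => by
    by_contra h
    refine nab ?_
    rw [← mB.sup_eq (zpowers_le.2 hz.1) (mt zpowers_le.1 h), abelianY]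
    exact ⟨hB, cycle_abelian z, zpowers_le.2 (centS hBP hz.2)⟩
  have rad : ∀ u ∈ B, (∀ b ∈ B, X.β u b = 1) → u ∈ 𝐙[P] := fun u hu h => by
    by_contra h1
    obtain ⟨y, hy, h2, h3⟩ := hnd u (hBP hu) fun e => h1 (e ▸ one_mem _)
    exact h1 (CB u hu y hy (fun e => h3 (h y e)) h2)
  obtain ⟨c, hcB, c1, hc⟩ : ∃ c ∈ B, c ≠ 1 ∧ ∀ b ∈ B, X.β c b = 1 := by
    by_contra h
    push Not at h
    exact not_nd_27 hB cB fun u hu h1 => let ⟨b, hb, h2⟩ := h u hu h1; ⟨b, hb, cm u hu b hb, h2⟩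
  have hcZ := rad c hcB hc
  have cen : 𝐙[P] = ⟪c⟫ := nt_gen_prime (hZ ▸ Nat.prime_three) hcZ c1
  have c3 : c ^ 3 = 1 := by rw [← hZ, cen, Nat.card_zpowers, pow_orderOf_eq_one]
  have cP : ∀ y ∈ P, Commute c y := fun y hy => (hcZ.2 y hy).symm
  have zB : ∀ z ∈ 𝐙[P], ∀ b ∈ B, X.β b z = 1 := fun z hz b hb => by
    obtain ⟨k, rfl⟩ := cen ▸ hz
    rw [X.zpow_right (cm b hb c hcB), (X.symm_eq_one (cm c hcB b hb)).2 (hc b hb), one_zpow]
  have ker : P ⊓ X.ker c = B := by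
    refine (mB.eq_or (le_inf hBP fun b hb => X.mem_ker.2 ⟨cm c hcB b hb, hc b hb⟩)
      inf_le_left).resolve_right fun e => ?_
    obtain ⟨y, hy, -, h⟩ := hnd c hcZ.1 c1
    exact h (X.mem_ker.1 (e.ge hy).2).2
  have uniq : ∀ B' ≤ P, IsMulCommutative B' → Nat.card B' = 27 → B' = B := fun B' h1 h2 h3 => by
    refine card_eq_of_le ?_ (by omega)
    by_contra h
    obtain ⟨x, hx, hxB⟩ := SetLike.not_le_iff_exists.1 h
    have h4 := card_le_of_le (show B ⊓ B' ≤ 𝐙[P] from fun u hu =>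
      CB u hu.1 x (h1 hx) hxB (comm_of_abelian h2 hu.2 hx))
    have h5 := (mulEq_of_norm (h1.trans nB.norm)).card
    have h6 := card_le_of_le (sup_le hBP h1)
    rw [hZ] at h4
    rw [cB, h3] at h5
    have := Nat.mul_le_mul h6 h4
    omega
  -- the derived group
  set E := ⁅P, P⁆ with hEd
  have cE : Nat.card E = 9 := by rw [hZ] at hE; omega
  have nE : E ⊴ P := der_normal P
  have pE : IsPGroup 3 E := pP.to_le nE.le
  have E1 : E ≠ ⊥ := fun e => by rw [e, card_bot] at cE; omega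
  have hEB : E ≤ B := der1_min nB.norm (cyclic_abelian (prime_cyclic (by
    rw [card_quotient nB.norm, iB]; exact Nat.prime_three)))
  have hZE : 𝐙[P] ≤ E := prime_meetG (hZ ▸ Nat.prime_three)
    (inf_comm E _ ▸ meet_center_nil (pgroup_nil pP) nE E1)
  have hEP : ⁅E, P⁆ ≤ 𝐙[P] := by
    by_cases h : ⁅E, P⁆ = ⊥
    · exact h ▸ bot_le
    have h1 := card_mul_le_of_lt pE (pgroup_comm_proper pP pE nE.norm E1)
    have h2 := Nat.le_of_dvd Nat.card_pos (pgroup_pdiv (pE.to_le (nE.commg_le le_rfl)) h)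
    exact normal_prime_sub_center pP (by omega) (normalR nE (normal_refl P))
  have iE : E.relIndex B = 3 := by have := card_mul_relIndex hEB; rw [cE] at this; omega
  have iZ : 𝐙[P].relIndex E = 3 := by have := card_mul_relIndex hZE; rw [hZ] at this; omega
  have nZ : 𝐙[P] ⊴ E := normalS hZE nE.le (center_normal P)
  have nEB : E ⊴ B := normalS hEB hBP nE
  obtain ⟨e₀, he₀, he₀Z⟩ := SetLike.not_le_iff_exists.1 fun h : E ≤ 𝐙[P] => by
    have := card_le_of_le h; omega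
  have iso : ∀ e ∈ E, ∀ d ∈ E, X.β e d = 1 := fun e he d hd => by
    have k := cm e (hEB he) d (hEB hd)
    by_cases h : e ∈ 𝐙[P]
    · exact (X.symm_eq_one k).1 (zB e h d (hEB hd))
    rcases idx3 nZ iZ he h hd with h1 | h1 | h1
    · exact zB d h1 e (hEB he)
    · have := zB _ h1 e (hEB he)
      rwa [X.mul_right k (Commute.refl e).inv_right, X.inv_right (Commute.refl e), X.alt, inv_one,
        mul_one] at this
    · have := zB _ h1 e (hEB he)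
      rwa [X.mul_right k (Commute.refl e), X.alt, mul_one] at this
  refine ⟨B, c, cen, c3, hB, cB, ker, uniq, fun u hu h => cen ▸ rad u hu h, fun x hx hxB =>
    ⟨e₀, nE.le he₀, cen ▸ hEP (mem_commg he₀ hx), fun h => he₀Z (CB e₀ (hEB he₀) x hx hxB h)⟩,
    fun n hn => ?_⟩
  have nZ' : n ∈ 𝐍[𝐙[P]] := norms_center le_rfl hn
  have hnE : n ∈ 𝐍[E] := normsR le_rfl le_rfl hn
  have hnB : n ∈ 𝐍[B] := conj_eq_iff_mem_norm.1 (uniq _ (conj_le_of_mem_norm hn hBP)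
    (isMulCommutative_conj.2 hB) ((card_conj n B).trans cB))
  rcases mem_cycle3 c3 (cen ▸ (memJ_norm nZ').2 hcZ) with h | h | h
  · exact absurd (by simpa using h) c1
  · exact mem_cent1.2 (mul_inv_eq_iff_eq_mul.1 h)
  exfalso
  obtain ⟨a, ha, haB⟩ := SetLike.exists_of_lt mB.lt
  obtain ⟨b, hb, hbE⟩ := SetLike.not_le_iff_exists.1 fun h : B ≤ E => by
    have := card_le_of_le h; omega
  have ha' : n⁻¹ * a * n ∈ P := (memJ_norm' hn).2 ha
  have h1 : a * (n⁻¹ * a * n) ∈ B := by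
    rw [← ker]
    refine ⟨mul_mem ha ha', X.mem_ker.2 ⟨cP _ (mul_mem ha ha'), ?_⟩⟩
    rw [X.mul_right (cP a ha) (cP _ ha'), ← X.conj n (cP _ ha'), h,
      show n * (n⁻¹ * a * n) * n⁻¹ = a by group, X.inv_left (cP a ha), mul_inv_cancel]
  have aB : ∀ u ∈ B, a * u * a⁻¹ ∈ B := fun u hu => nB.conj_mem ha hu
  have dE : ∀ u ∈ B, a * u * a⁻¹ * u⁻¹ ∈ E := fun u hu => mem_commg ha (hBP hu)
  have gam : ∀ u ∈ B, X.β u (a * u * a⁻¹) = X.β u (a * u * a⁻¹ * u⁻¹) := fun u hu => by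
    rw [X.mul_right (cm u hu _ (aB u hu)) (Commute.refl u).inv_right, X.inv_right (Commute.refl u),
      X.alt, inv_one, mul_one]
  have gE : ∀ u ∈ B, ∀ e ∈ E, X.β (u * e) (a * (u * e) * a⁻¹) = X.β u (a * u * a⁻¹) :=
    fun u hu e he => by
    have he' := hEB he
    have z1 : a * e * a⁻¹ * e⁻¹ ∈ 𝐙[P] := (commGC E P ▸ hEP) (mem_commg ha he)
    rw [show a * (u * e) * a⁻¹ = a * u * a⁻¹ * (a * e * a⁻¹ * e⁻¹ * e) by group,
      X.mul_right (cm _ (mul_mem hu he') _ (aB u hu)) (cm _ (mul_mem hu he') _ (mul_mem (hZB z1) he')),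
      X.mul_right (cm _ (mul_mem hu he') _ (hZB z1)) (cm _ (mul_mem hu he') _ he'),
      zB _ z1 _ (mul_mem hu he'), X.mul_left (cm u hu _ (aB u hu)) (cm e he' _ (aB u hu)),
      X.mul_left (cm u hu e he') (Commute.refl e), X.alt,
      ← inv_mul_cancel_right (a * u * a⁻¹) u, X.mul_right (cm e he' _ (hEB (dE u hu))) (cm e he' u hu),
      iso e he _ (dE u hu), one_mul, one_mul, mul_one, mul_assoc, X.skew (cm e he' u hu), mul_one]
  have g1 : X.β (n * b * n⁻¹) (a * (n * b * n⁻¹) * a⁻¹) = (X.β b (a * b * a⁻¹))⁻¹ := by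
    have k1 : a * (n * b * n⁻¹) * a⁻¹ = n * (a⁻¹ * b * a) * n⁻¹ := by
      rw [show a * (n * b * n⁻¹) * a⁻¹ = n * (a⁻¹ * (a * (n⁻¹ * a * n) * b *
        (a * (n⁻¹ * a * n))⁻¹) * a) * n⁻¹ by group, (cm _ h1 b hb).eq, mul_inv_cancel_right]
    have k2 : a⁻¹ * b * a ∈ B := (memJ_norm' (nB.norm ha)).2 hb
    rw [k1, X.conj n (cm b hb _ k2), ← X.conj a (cm b hb _ k2),
      show a * (a⁻¹ * b * a) * a⁻¹ = b by group, X.symm_inv (cm b hb _ (aB b hb))]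
  have g2 : X.β (n * b * n⁻¹) (a * (n * b * n⁻¹) * a⁻¹) = X.β b (a * b * a⁻¹) := by
    have k := (memJ_norm hnB).2 hb
    rcases idx3 nEB iE hb hbE k with h2 | h2 | h2
    · exact absurd ((memJ_norm hnE).1 h2) hbE
    · rw [← gE b hb _ h2, (cm b hb _ (hEB h2)).eq, inv_mul_cancel_right]
    · have := gE _ (inv_mem hb) _ h2
      rw [(cm _ (inv_mem hb) _ (hEB h2)).eq, mul_inv_cancel_right] at this
      rw [this, show a * b⁻¹ * a⁻¹ = (a * b * a⁻¹)⁻¹ by group,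
        X.inv_left (cm b hb _ (aB b hb)).inv_right, X.inv_right (cm b hb _ (aB b hb)), inv_inv]
  have dZ : a * b * a⁻¹ * b⁻¹ ∉ 𝐙[P] := fun h2 => he₀Z ?_
  · have k := cm b hb _ (hEB (dE b hb))
    refine inv_ne_self ?_ (fun h2 => dZ (rad _ (hEB (dE b hb)) fun u hu => ?_)) (g1.symm.trans g2)
    · rw [gam b hb, ← X.pow_right k]
      exact zB _ (iZ ▸ pow_relIndex_mem' nZ (dE b hb)) b hb
    · rw [gam b hb, X.symm_eq_one k.symm] at h2
      have k' := cm _ (hEB (dE b hb)) u hu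
      rcases idx3 nEB iE hb hbE hu with h3 | h3 | h3
      · exact iso _ (dE b hb) u h3
      · have := iso _ (dE b hb) _ h3
        rwa [X.mul_right k' k.symm.inv_right, X.inv_right k.symm, h2, inv_one, mul_one] at this
      · have := iso _ (dE b hb) _ h3
        rwa [X.mul_right k' k.symm, h2, mul_one] at this
  · have nP := (center_normal P).norm
    refine der1_min nP ?_ he₀
    refine abelianS (quotientS _ (mB.sup_eq (zpowers_le.2 ha) (mt zpowers_le.1 haB)).ge) ?_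
    rw [quotientY (hBP.trans nP) (zpowers_le.2 (nP ha)), abelianY]
    refine ⟨quotient_abelian _ hB, quotient_abelian _ (cycle_abelian a), ?_⟩
    rw [quotient_cycle (nP ha), zpowers_le, coset_mem_cent_iff (nP ha) (hBP.trans nP)]
    intro u hu
    rw [← commutatorElement_inv, inv_mem_iff, commutatorElement_def]
    have z1 : ∀ e ∈ E, a * e * a⁻¹ * e⁻¹ ∈ 𝐙[P] := fun e he => (commGC E P ▸ hEP) (mem_commg ha he)
    rcases idx3 nEB iE hb hbE hu with h3 | h3 | h3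
    · exact z1 u h3
    · have := mul_mem (z1 _ h3) ((center_normal P).conj_mem (nE.le h3) h2)
      convert this using 1
      group
    · have := mul_mem (z1 _ h3) ((center_normal P).conj_mem (hBP hu) (inv_mem h2))
      convert this using 1
      group

theorem caseB (hS : ⁅S, S⁆ = S) (hA : Syl 2 A S)
    (h4 : ∀ s ∈ A, ∀ t ∈ A, s * s ≠ 1 → t * t ≠ 1 → t ∈ ⟪s⟫) (hP : Syl 3 P S)
    (nab : ¬ IsMulCommutative P) (h : MC X P B c) : False := by
  have hc : c ∈ 𝐙[P] := h.cen ▸ mem_zpowers c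
  have hBP : B ≤ P := h.ker ▸ inf_le_left
  have wc := fun g => weakly_closed (g := g) hA h4 hP hc h.c3 fun g hg hx hn => h.tr _ hx fun hB => by
    obtain ⟨a, -, e, hle⟩ := adjust hP hc.2 hg
    have h1 : a⁻¹ •ᶜ B = B := h.uniq _ (le_conj_iff.1 ((le_inf hBP (le_cent1.2
      (abelian_iff.1 h.ab hB))).trans hle)) (isMulCommutative_conj.2 h.ab)
      ((card_conj _ B).trans h.card)
    refine hn (h.rad _ hB fun b hb => ?_)
    have h2 := X.mem_ker.1 (h.ker.ge ((memJ_norm (conj_eq_iff_mem_norm.1 h1)).2 hb)).2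
    rw [← e, ← h2.2, ← X.conj a h2.1]
    congr 1
    group
  have hN : S ⊓ 𝐍[⟪c⟫] ≤ 𝐂₁[c] := fun n hn => by
    obtain ⟨u, hu, m, hm, rfl⟩ := (Frattini_arg (subcent_normal S ⟪c⟫)
      (hP.subl (le_inf hP.le (centsC.1 (zpowers_le.2 hc.2))) inf_le_left)).exists_mul hn
    exact mul_mem (cent_cycle c ▸ hu.2) (h.norm hm.2)
  have h1 := focal_subgroup_le (K := X.ker c) hP fun y hy g hg hz => by
    obtain ⟨n, hn, e⟩ := control hP hc wc hy hg hz
    have k : Commute c y := (hc.2 y hy).symm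
    have k' : Commute c (g * y * g⁻¹) := (hc.2 _ hz).symm
    refine X.mem_ker.2 ⟨k'.mul_right k.inv_right, ?_⟩
    rw [X.mul_right k' k.inv_right, X.inv_right k, ← e, beta_conj X (mem_cent1.1 (hN hn)) k,
      mul_inv_cancel]
  rw [hS, inf_eq_left.2 hP.le] at h1
  exact nab ((inf_eq_left.2 h1).symm.trans h.ker ▸ h.ab)

theorem caseA (hS : ⁅S, S⁆ = S) (hA : Syl 2 A S)
    (h4 : ∀ s ∈ A, ∀ t ∈ A, s * s ≠ 1 → t * t ≠ 1 → t ∈ ⟪s⟫) (hQ : Syl 3 Q S)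
    (hZ : 𝐙[Q].relIndex Q = 9) (hd : ⁅Q, Q⁆ = ⟪c⟫) (c3 : c ^ 3 = 1) (hc : c ∈ 𝐙[Q])
    (hk : ¬ Q ≤ X.ker c) : False := by
  have nc : 𝐍[Q] ≤ 𝐍[⟪c⟫] := hd ▸ normsR le_rfl le_rfl
  have cQ : ∀ y ∈ Q, Commute c y := fun y hy => (hc.2 y hy).symm
  have wc := fun g => weakly_closed (g := g) hA h4 hQ hc c3 fun g hg hx hn => by
    by_contra h1
    push Not at h1
    obtain ⟨a, -, e, hle⟩ := adjust hQ hc.2 hg
    have h2 : a ∈ 𝐍[Q] := mem_norm_of_le_conj ((le_inf le_rfl fun y hy =>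
      mem_cent1.2 (h1 y hy (hd ▸ mem_commg hy hx))).trans hle)
    exact hn (e ▸ (memJ_norm (nc h2)).2 (mem_zpowers c))
  have h1 := focal_subgroup_le (K := 𝐙[Q] ⊔ ⁅S ⊓ 𝐍[Q], S ⊓ 𝐍[Q]⁆) hQ fun y hy g hg hz => by
    obtain ⟨n, hn, e⟩ := control hQ hc wc hy hg hz
    have k1 : Q ≤ S ⊓ commStab ⟪g * y * g⁻¹⟫ ⟪c⟫ := le_inf hQ.le (le_commStab.2
      ⟨(normG Q).trans nc, hd ▸ commgS Q (zpowers_le.2 hz)⟩)
    have k2 : n •ᶜ Q ≤ S ⊓ commStab ⟪g * y * g⁻¹⟫ ⟪c⟫ := le_inf (conj_le_of_mem hn.1 hQ.le)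
      (le_commStab.2 ⟨conj_le_of_mem hn.2 ((normG Q).trans nc), by
        rw [← e, ← conj_zpowers, ← conj_commutator]
        exact conj_le_of_mem_norm hn.2 (hd ▸ commgS Q (zpowers_le.2 hy))⟩)
    obtain ⟨d, hd', e'⟩ := Sylow_trans (((sylJ hn.1).2 hQ).subl k2 inf_le_left)
      (hQ.subl k1 inf_le_left)
    rw [conj_conj] at e'
    have hm : d * n ∈ S ⊓ 𝐍[Q] := ⟨mul_mem hd'.1 hn.1, conj_eq_iff_mem_norm.1 e'.symm⟩
    have k3 := (le_commStab.1 (zpowers_le.2 hd'.2)).2 (mem_commg (mem_zpowers d) (mem_zpowers _))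
    have k4 := mem_commg hm (show y ∈ S ⊓ 𝐍[Q] from ⟨hQ.le hy, normG Q hy⟩)
    convert mul_mem (inv_mem (mem_sup_left (zpowers_le.2 hc k3))) (mem_sup_right k4) using 1
    rw [← e, commutatorElement_def, commutatorElement_def]
    group
  rw [hS, inf_eq_left.2 hQ.le] at h1
  obtain ⟨a, ha, haK⟩ := SetLike.not_le_iff_exists.1 hk
  have b3 : ∀ y ∈ Q, X.β c y ^ 3 = 1 := fun y hy => X.pow_eq_one_of_left (cQ y hy) c3
  have mk : ∀ y ∈ Q, y ∈ X.ker c ↔ X.β c y = 1 := fun y hy =>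
    ⟨fun h => (X.mem_ker.1 h).2, fun h => X.mem_ker.2 ⟨cQ y hy, h⟩⟩
  have ha1 : X.β c a ≠ 1 := mt (mk a ha).2 haK
  have hZB : 𝐙[Q] ≤ Q ⊓ X.ker c := fun z hz => ⟨hz.1, (mk z hz.1).2 ((X.symm_eq_one
    (cQ z hz.1).symm).2 (X.mem_ker.1 (Core.der_le_ker X (le_cent1.2 hz.2)
      (hd ▸ mem_zpowers c))).2)⟩
  have c1 : c ≠ 1 := fun e => ha1 (e ▸ X.one_left a)
  obtain ⟨b, hb, hbZ⟩ := SetLike.not_le_iff_exists.1 fun h : Q ⊓ X.ker c ≤ 𝐙[Q] => by
    have h2 : Q ≤ 𝐙[Q] ⊔ ⟪a⟫ := fun u hu => by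
      have m := (mem_sup_right (mem_zpowers a) : a ∈ 𝐙[Q] ⊔ ⟪a⟫)
      rcases cube_roots (b3 a ha) ha1 (b3 u hu) with h3 | h3 | h3
      · exact mem_sup_left (h ⟨hu, (mk u hu).2 h3⟩)
      · rw [← X.inv_right (cQ a ha), ← X.mul_right (cQ u hu) (cQ a ha).inv_right,
          ← mk _ (mul_mem hu (inv_mem ha))] at h3
        simpa using mul_mem (mem_sup_left (h ⟨Q.mul_mem hu (Q.inv_mem ha), h3⟩)) m
      · rw [← X.mul_right (cQ u hu) (cQ a ha), ← mk _ (mul_mem hu ha)] at h3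
        simpa using mul_mem (mem_sup_left (h ⟨mul_mem hu ha, h3⟩)) (inv_mem m)
    have h3 := derG1P.2 (abelianS h2 (abelianY.2 ⟨center_abelian Q, cycle_abelian a,
      zpowers_le.2 (centsC.1 (inf_le_right : 𝐙[Q] ≤ 𝐂[Q]) ha)⟩))
    exact c1 (mem_bot.1 (h3 ▸ hd ▸ mem_zpowers c))
  have iZ : 𝐙[Q].relIndex (Q ⊓ X.ker c) = 3 := by
    have k1 := relIndex_mul_relIndex _ _ _ hZB (inf_le_left : Q ⊓ X.ker c ≤ Q)
    obtain ⟨i, k2⟩ := dvd_relIndex_of_pgroup (hQ.pgroup.to_le (inf_le_left : Q ⊓ X.ker c ≤ Q))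
      (fun h => hbZ (h hb))
    obtain ⟨j, k3⟩ := dvd_relIndex_of_pgroup (K := Q ⊓ X.ker c) hQ.pgroup fun h => haK (h ha).2
    rw [hZ, k2, k3] at k1
    have : i * j = 1 := by linarith
    rw [k2, Nat.eq_one_of_mul_eq_one_right this]
  have nZ : 𝐙[Q] ⊴ Q ⊓ X.ker c := normalS hZB inf_le_left (center_normal Q)
  have cb : ∀ u ∈ Q ⊓ X.ker c, Commute u b := fun u hu => by
    rcases idx3 nZ iZ hb hbZ hu with h | h | h
    · exact (h.2 b hb.1).symm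
    · simpa using (show Commute (u * b⁻¹) b from (h.2 b hb.1).symm).mul_left (Commute.refl b)
    · simpa using (show Commute (u * b) b from (h.2 b hb.1).symm).mul_left (Commute.refl b).inv_left
  have hdc : a * b * a⁻¹ * b⁻¹ ∈ ⟪c⟫ := hd ▸ mem_commg ha hb.1
  have hdZ := zpowers_le.2 hc hdc
  have d3 := conj_cycle3' c3 hdc
  have d1 : a * b * a⁻¹ * b⁻¹ ≠ 1 := fun e => hbZ ⟨hb.1, mem_cent.2 fun u hu => by
    have k : Commute a b := mul_inv_eq_iff_eq_mul.1 (mul_inv_eq_one.1 e)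
    rcases cube_roots (b3 a ha) ha1 (b3 u hu) with h3 | h3 | h3
    · exact cb u ⟨hu, (mk u hu).2 h3⟩
    · rw [← X.inv_right (cQ a ha), ← X.mul_right (cQ u hu) (cQ a ha).inv_right,
        ← mk _ (mul_mem hu (inv_mem ha))] at h3
      simpa using ((cb _ ⟨Q.mul_mem hu (Q.inv_mem ha), h3⟩).mul_left k).eq
    · rw [← X.mul_right (cQ u hu) (cQ a ha), ← mk _ (mul_mem hu ha)] at h3
      simpa using ((cb _ ⟨mul_mem hu ha, h3⟩).mul_left k.inv_left).eq⟩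
  have act : ∀ n ∈ 𝐍[Q], n * b * n⁻¹ * b⁻¹ ∈ 𝐙[Q] := fun n hn => by
    have k0 := mem_cycle3 c3 ((memJ_norm (nc (inv_mem hn))).2 (mem_zpowers c))
    have val : ∀ y ∈ Q, X.β c (n * y * n⁻¹) = X.β (n⁻¹ * c * n⁻¹⁻¹) y := fun y hy => by
      rw [← X.conj n⁻¹ (cQ _ ((memJ_norm hn).2 hy))]; congr 1; group
    have k1 : n * b * n⁻¹ ∈ Q ⊓ X.ker c := ⟨(memJ_norm hn).2 hb.1, (mk _ ((memJ_norm hn).2 hb.1)).2 (by
      rw [val b hb.1]
      rcases k0 with h | h | h <;> rw [h]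
      · exact X.one_left b
      · exact (mk b hb.1).1 hb.2
      · rw [X.inv_left (cQ b hb.1), (mk b hb.1).1 hb.2, inv_one])⟩
    rcases idx3 nZ iZ hb hbZ k1 with h | h | h
    · exact absurd ((memJ_norm (norms_center le_rfl hn)).1 h) hbZ
    · exact h
    exfalso
    have ha' : n * a * n⁻¹ ∈ Q := (memJ_norm hn).2 ha
    set d := a * b * a⁻¹ * b⁻¹ with hdd
    have e1 : a * b * a⁻¹ = d * b := by rw [hdd]; group
    have e2 : n * a * n⁻¹ * b * (n * a * n⁻¹)⁻¹ = (n * d * n⁻¹)⁻¹ * b := by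
      have z1 := h.2 _ ha'
      have z2 := ((memJ_norm (norms_center le_rfl hn)).2 hdZ).2 _ k1.1
      calc n * a * n⁻¹ * b * (n * a * n⁻¹)⁻¹
          = (n * (a * b * a⁻¹) * n⁻¹)⁻¹ * (n * a * n⁻¹ * (n * b * n⁻¹ * b)) * (n * a * n⁻¹)⁻¹ := by
            group
        _ = (n * d * n⁻¹ * (n * b * n⁻¹))⁻¹ * (n * b * n⁻¹ * b) := by rw [z1, e1]; group
        _ = _ := by rw [← z2]; group
    rcases k0 with h' | h' | h'
    · exact c1 (conj_eq_one_iff.1 h')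
    · have f1 : a⁻¹ * (n * a * n⁻¹) ∈ Q ⊓ X.ker c := ⟨Q.mul_mem (Q.inv_mem ha) ha',
        (mk _ (mul_mem (inv_mem ha) ha')).2 (by
          rw [X.mul_right (cQ a ha).inv_right (cQ _ ha'), val a ha, h', X.inv_right (cQ a ha),
            inv_mul_cancel])⟩
      have f2 : n * d * n⁻¹ = d := by
        obtain ⟨k, hk⟩ := hdc
        rw [← hk]
        dsimp only
        rw [← conj_zpow]
        congr 1
        rw [← h']; nth_rw 2 [h']; group
      rw [f2, show n * a * n⁻¹ * b * (n * a * n⁻¹)⁻¹ = a * (a⁻¹ * (n * a * n⁻¹) * b *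
        (a⁻¹ * (n * a * n⁻¹))⁻¹) * a⁻¹ by group, (cb _ f1).eq, mul_inv_cancel_right, e1,
        mul_left_inj, eq_inv_iff_mul_eq_one] at e2
      exact d1 (by rwa [pow_succ, pow_two, e2, one_mul] at d3)
    · have f1 : a * (n * a * n⁻¹) ∈ Q ⊓ X.ker c := ⟨mul_mem ha ha',
        (mk _ (mul_mem ha ha')).2 (by
          rw [X.mul_right (cQ a ha) (cQ _ ha'), val a ha, h', X.inv_left (cQ a ha),
            mul_inv_cancel])⟩
      have f2 : n * d * n⁻¹ = d⁻¹ := by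
        obtain ⟨k, hk⟩ := hdc
        rw [← hk]
        dsimp only
        rw [← conj_zpow, ← inv_zpow]
        congr 1
        calc n * c * n⁻¹ = n * (n⁻¹ * c * n⁻¹⁻¹)⁻¹ * n⁻¹ := by rw [h', inv_inv]
          _ = c⁻¹ := by group
      have f3 : a⁻¹ * b * a = d⁻¹ * b := by
        rw [eq_inv_mul_iff_mul_eq, ← mul_assoc, ← mul_assoc, ← hdZ.2 _ (inv_mem ha), mul_assoc a⁻¹,
          ← e1]
        group
      rw [f2, inv_inv, show n * a * n⁻¹ * b * (n * a * n⁻¹)⁻¹ = a⁻¹ * (a * (n * a * n⁻¹) * b *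
        (a * (n * a * n⁻¹))⁻¹) * a by group, (cb _ f1).eq, mul_inv_cancel_right, f3,
        mul_left_inj, inv_eq_iff_mul_eq_one] at e2
      exact d1 (by rwa [pow_succ, pow_two, e2, one_mul] at d3)
  have nN : S ⊓ 𝐍[Q] ≤ 𝐍[𝐙[Q]] := norms_center inf_le_right
  have nQ := (center_normal Q).norm
  have h2 := abelian_Sylow_der1_TI_center
    ((hQ.subl (le_inf hQ.le (normG Q)) inf_le_left).quo nQ)
    (sub_der1_abelian (hd ▸ zpowers_le.2 hc))
  refine hbZ (coset_idr (nQ hb.1) (mem_bot.1 (h2 ▸ ⟨⟨mem_quotient _ hb.1, ?_⟩, centS inf_le_left ?_⟩)))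
  · rw [← quotient_der nN, ← quotientYidl ((der_sub _).trans nN)]
    exact mem_quotient _ (h1 hb.1)
  · exact (coset_mem_cent_iff (nQ hb.1) nN).2 fun n hn => act n hn.2

end Cfsg.Gag.Th

namespace Cfsg.Gag

open Subgroup Cfsg.FT Fin5 Th
open scoped Pointwise

universe u

theorem stThree : StThree.{u} := by
  intro G _ _ X S A P hX hS hA hKD hP
  by_contra nab
  have hQ := hS.syl 3 Nat.prime_three P hP
  have nabP : ¬ IsMulCommutative P := fun h => nab (abelianS inf_le_left h)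
  have cP := (hX.shape 3 Nat.prime_three P hP).resolve_left nabP
  have hnd := hX.syl 3 Nat.prime_three P hP
  have hd := Core.comp_der hS
  have h4 := small_two hKD
  have hE := (exists_B cP nabP).2
  have P1 : P ≠ ⊥ := fun e => nabP (e ▸ abelian_bot)
  have hZ : Nat.card ↥𝐙[P] = 3 ∨ Nat.card ↥𝐙[P] = 9 := by
    obtain ⟨i, hi⟩ := pow_sq_dvd_center_index hP.pgroup nabP
    obtain ⟨j, hj⟩ := pgroup_pdiv (hP.pgroup.to_le (inf_le_left : 𝐙[P] ≤ P))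
      (mt (trivg_center_pgroup hP.pgroup).1 P1)
    have h1 := card_mul_relIndex (inf_le_left : 𝐙[P] ≤ P)
    rw [hi, hj, cP] at h1
    have : j ∣ 3 := ⟨i, by linarith⟩
    rcases (Nat.dvd_prime Nat.prime_three).1 this with h | h <;> rw [hj, h] <;> simp
  have gen : ∀ Q : Subgroup G, IsPGroup 3 Q → Nat.card ↥⁅Q, Q⁆ = 3 →
      ∃ c, ⁅Q, Q⁆ = ⟪c⟫ ∧ c ^ 3 = 1 ∧ c ∈ 𝐙[Q] ∧ c ≠ 1 := fun Q pQ h => by
    obtain ⟨c, hc, c1⟩ := exists_ne_one (ne_bot_of_prime (h ▸ Nat.prime_three))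
    have e := nt_gen_prime (h ▸ Nat.prime_three) hc c1
    exact ⟨c, e, by rw [← h, e, Nat.card_zpowers, pow_orderOf_eq_one],
      normal_prime_sub_center pQ h (der_normal Q) hc, c1⟩
  by_cases e : P ⊓ S = P
  · rw [e] at hQ
    rcases hZ with hZ | hZ
    · obtain ⟨B, c, h⟩ := exists_MC cP nabP hnd hZ
      exact caseB hd hA h4 hQ nabP h
    · obtain ⟨c, h1, c3, hc, c1⟩ := gen P hP.pgroup (by rw [hZ] at hE; omega)
      obtain ⟨y, hy, -, h2⟩ := hnd c hc.1 c1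
      exact caseA (X := X) hd hA h4 hQ
        (by have := card_mul_relIndex (inf_le_left : 𝐙[P] ≤ P); rw [hZ] at this; omega) h1 c3 hc
        fun h => h2 (X.mem_ker.1 (h hy)).2
  set Q := P ⊓ S with hQd
  have hQP : Q ≤ P := inf_le_left
  have cQ : Nat.card Q = 27 := by
    obtain ⟨k, hk⟩ := hQ.pgroup.exists_card_eq
    have h5 := card_mul_le_of_lt hP.pgroup (lt_of_le_of_ne hQP e)
    rw [cP, hk, ← pow_succ, Nat.pow_le_pow_iff_right (by decide)] at h5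
    have h6 : ¬ k ≤ 2 := fun h => nab (p2group_abelian (p := 3) (hk ▸ pow_dvd_pow 3 h))
    rw [hk, show k = 3 by omega]; rfl
  have Q1 : Q ≠ ⊥ := fun e => nab (e ▸ abelian_bot)
  have small : ∀ K ≤ Q, K ≠ ⊥ → 3 ^ 2 ∣ K.relIndex Q → Nat.card K = 3 ∧ K.relIndex Q = 9 :=
    fun K hK h1 ⟨i, hi⟩ => by
    obtain ⟨j, hj⟩ := pgroup_pdiv (hQ.pgroup.to_le hK) h1
    have h2 := card_mul_relIndex hK
    rw [hi, hj, cQ] at h2
    have : j * i = 1 := by linarith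
    rw [hj, hi, Nat.eq_one_of_mul_eq_one_right this, Nat.eq_one_of_mul_eq_one_left this]
    simp
  obtain ⟨zQ, iZ⟩ := small _ inf_le_left (mt (trivg_center_pgroup hQ.pgroup).1 Q1)
    (pow_sq_dvd_center_index hQ.pgroup nab)
  obtain ⟨dQ, -⟩ := small _ (der_sub Q) (mt derG1P.1 nab)
    (pow_sq_dvd_der_index hQ.pgroup fun h => nab (cyclic_abelian h))
  obtain ⟨c, h1, c3, hc, c1⟩ := gen Q hQ.pgroup dQ
  refine caseA (X := X) hd hA h4 hQ iZ h1 c3 hc fun hk => ?_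
  have iQ : Q.relIndex P = 3 := by have := card_mul_relIndex hQP; rw [cQ] at this; omega
  have mQ := p_index_maximal hQP (iQ ▸ Nat.prime_three)
  have hcP : c ∈ 𝐙[P] := normal_prime_sub_center hP.pgroup dQ
    (index_p_normal hP.pgroup hQP iQ).der (h1 ▸ mem_zpowers c)
  have hker : P ⊓ X.ker c = Q := (mQ.eq_or (le_inf hQP hk) inf_le_left).resolve_right fun e => by
    obtain ⟨y, hy, -, h⟩ := hnd c hcP.1 c1
    exact h (X.mem_ker.1 (e.ge hy).2).2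
  rcases hZ with hZ | hZ
  · obtain ⟨B, c', h⟩ := exists_MC cP nabP hnd hZ
    have h2 : B ≤ Q := fun b hb => by
      have h3 := h.ker.ge hb
      obtain ⟨k, rfl⟩ := h.cen ▸ hcP
      refine hker.le ⟨h3.1, X.mem_ker.2 ⟨(X.mem_ker.1 h3.2).1.zpow_left k, ?_⟩⟩
      dsimp only
      rw [X.zpow_left (X.mem_ker.1 h3.2).1, (X.mem_ker.1 h3.2).2, one_zpow]
    exact nab (card_eq_of_le h2 (by rw [cQ, h.card]) ▸ h.ab)
  · have h2 : 𝐙[P] ≤ 𝐙[Q] := fun z hz => ⟨hker.le ⟨hz.1, X.mem_ker.2 ⟨(hcP.2 z hz.1).symm,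
      (X.symm_eq_one (show Commute z c from hcP.2 z hz.1)).2 (X.mem_ker.1 (Core.der_le_ker X
        (le_cent1.2 hz.2) (dergS hQP (h1 ▸ mem_zpowers c)))).2⟩⟩, centS hQP hz.2⟩
    have := card_le_of_le h2
    omega

end Cfsg.Gag
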