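import Cfsg.Agent.Gag.VB
import Cfsg.Agent.Gag.CharA
import Cfsg.Agent.Gag.Short
import Cfsg.Agent.Gag.W3
import Cfsg.Agent.CT.GoodClasses

/-!
# Pieces V and Cnt of the short endgame
-/

set_option autoImplicit false

namespace Cfsg.Gag

open Subgroup
open scoped ComplexConjugate

universe u

namespace V

variable {L : Type u} [Group L] [Finite L] {Z : Subgroup L} {lam : Z →* ℂˣ} {t τ : L}
  {P : Sylow 2 L}

theorem exists_over [Z.Normal] (hZ : Z ≤ center L) (lam : Z →* ℂˣ) :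
    ∃ χ : IrrCharacter L, Over lam χ.1 := by
  classical
  have := Fintype.ofFinite Z
  have h := sum_over_central_mul_conj hZ lam 1
  rw [if_pos fun x hx => by rw [← map_one lam]; congr 1; ext; simp] at h
  obtain ⟨χ, hχ, -⟩ := Finset.exists_ne_zero_of_sum_ne_zero
    (h ▸ Nat.cast_ne_zero.2 Nat.card_pos.ne')
  exact ⟨χ, over_of_inner (t := 1) hZ le_rfl (φ := fun n => (lam n : ℂ)) (fun z u => by
    rw [map_mul, Units.val_mul]; rfl) χ
    (by simpa using (Finset.mem_filter.1 hχ).2)⟩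

theorem index_ne [Fintype L] (h : IsDih (P : Subgroup L) t τ 1)
    (hinv : ∀ s, orderOf s = 2 → IsConj t s) (hZ : Z ≤ center L) (ho : Odd (Nat.card Z))
    (hp : ∀ f : L →* ℂˣ, (∀ z ∈ Z, f z = 1) → f = 1) :
    4 * (centralizer ({t} : Set L)).index ≠ 3 * nInv t ^ 2 := by
  classical
  intro hN
  obtain ⟨M, hM⟩ := exists_isPModular Nat.prime_two
  have ht := dih_ord h
  have ht2 := mul_self_eq_one_of_orderOf_two ht
  have ht1 : t ≠ 1 := fun e => by rw [e, orderOf_one] at ht; omega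
  choose b hb using fun χ : IrrCharacter L => χ.exists_int_apply_of_mul_self ht2
  set B := irrFinset (principalBlock M L) with hB
  have h4 : ∑ χ ∈ B, (b χ : ℂ) * b χ = 4 := by
    have := h.sum_mul_conj hM ⟨t, mem_zpowers t⟩ ⟨t, mem_zpowers t⟩
      fun e => ht1 (congrArg Subtype.val e)
    rw [if_pos rfl, if_pos (Subtype.ext (eq_inv_of_mul_eq_one_right ht2)), Nat.card_zpowers,
      ht] at this
    simp only [fun χ => (hb χ).1, map_intCast] at this
    rw [this]; norm_num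
  set Θ : L → ℂ := fun g => ∑ χ ∈ B, b χ * χ.1 g with hΘ
  have h0 : ∀ g, ¬ 2 ∣ orderOf g → Θ g = 0 := fun g hg => by
    have := isPBlock_principalBlock.sum_mul_conj_eq_zero hM
      (not_isConj_pPart_of_regular_singular hg ht.symm.dvd)
    simpa only [fun χ => (hb χ).1, map_intCast, mul_comm] using this
  have hJ4 : Θ t = 4 := by simpa only [hΘ, fun χ => (hb χ).1] using h4
  set C := centralizer ({t} : Set L) with hC
  have key := h.sum_sum_isConj (by simpa using hinv) (C := C) (by rw [pow_one]) (Θ := Θ)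
    (fun x y => Finset.sum_congr rfl fun χ _ => by rw [χ.isClassFunction x y])
    (fun g hg => Finset.sum_congr rfl fun χ hχ => by
      rw [← h.apply_pPart hM (mem_irrFinset.1 hχ) hg]) h0
  have hs : ∀ f : zpowers t → ℂ, ∑ s, f s = f 1 + f ⟨t, mem_zpowers t⟩ :=
    fun f => Fintype.sum_eq_add _ _ (fun e => ht1 (congrArg Subtype.val e).symm) fun x hx => by
      refine absurd (Subtype.ext ((h.eq_J x.2 (orderOf_eq_prime ?_ fun e => hx.1
        (Subtype.ext e))).trans (pow_one t))) hx.2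
      rw [← orderOf_dvd_iff_pow_eq_one, ← ht]
      exact orderOf_dvd_of_mem_zpowers x.2
  have hτ' := h.mul_τ_notMem (mem_zpowers t)
  have hm := Subgroup.mul_mem _ h.mem_σ h.mem_τ
  have d1 : C ⊓ centralizer {τ} = _ := dih_cent h h.mem_τ h.notMem
  have d2 : C ⊓ centralizer {t * τ} = _ := dih_cent h hm hτ'
  simp only [hs, Subgroup.coe_one, one_mul, inv_one, mul_one, pow_one,
    inv_eq_of_mul_eq_one_right ht2, hJ4, h0 1 (by simp), ht2, h.invW_eq C h.mem_τ h.notMem,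
    h.invW_eq C hm hτ', d1, d2, Nat.cast_one] at key
  simp only [hΘ] at key
  rw [Finset.sum_congr rfl fun s _ => Finset.sum_comm, Finset.sum_comm] at key
  simp only [← Finset.mul_sum, IrrCharacter.sum_sum_isConj, fun χ => (hb χ).1, ← hC] at key
  have hn := congrArg (Nat.cast : ℕ → ℂ) (nInv_mul h hinv)
  have hN' := congrArg (Nat.cast : ℕ → ℂ) hN
  have i0 : (C.index : ℂ) ≠ 0 := Nat.cast_ne_zero.2 index_ne_zero_of_finite
  have c1 : (Nat.card (centralizer ((P : Subgroup L) : Set L)) : ℂ) ≠ 0 :=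
    Nat.cast_ne_zero.2 Nat.card_pos.ne'
  push_cast at hn hN' key
  rw [← hC] at hn
  have k2 : ∑ χ ∈ B, (b χ : ℂ) ^ 3 / charDegree χ.1 = 8 / 3 := by
    have e : ∑ χ ∈ B, (b χ : ℂ) * (C.index ^ 2 * (b χ ^ 2 / charDegree χ.1)) =
        C.index ^ 2 * ∑ χ ∈ B, (b χ : ℂ) ^ 3 / charDegree χ.1 := by
      rw [Finset.mul_sum]; exact Finset.sum_congr rfl fun χ _ => by ring
    have e' : (Nat.card C : ℂ) / Nat.card (centralizer ((P : Subgroup L) : Set L)) = nInv t / 2 := by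
      field_simp; linear_combination -hn
    rw [e, e'] at key
    refine mul_left_cancel₀ (pow_ne_zero 2 i0) ?_
    linear_combination key - 2 / 3 * C.index * hN'
  have k3 : ∑ χ ∈ B, (b χ : ℝ) ^ 3 / charDegree χ.1 = 8 / 3 := by
    apply Complex.ofReal_injective
    push_cast
    exact k2
  have h4' : ∑ χ ∈ B, b χ * b χ = 4 := by exact_mod_cast h4
  have hB1 : IrrCharacter.triv L ∈ B := mem_irrFinset.2 hM.triv_mem_principalBlock
  have b1 : b (IrrCharacter.triv L) = 1 := by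
    have : (1 : ℂ) = _ := (hb (IrrCharacter.triv L)).1
    exact_mod_cast this.symm
  rw [← Finset.add_sum_erase _ _ hB1, b1] at k3 h4'
  have h3 : ∑ χ ∈ B.erase (IrrCharacter.triv L), (b χ : ℝ) * b χ / 2 = 3 / 2 := by
    rw [← Finset.sum_div]
    congr 1
    exact_mod_cast (by omega : ∑ χ ∈ B.erase (IrrCharacter.triv L), b χ * b χ = 3)
  have hle := Finset.sum_le_sum (s := B.erase (IrrCharacter.triv L))
    (f := fun χ => (b χ : ℝ) ^ 3 / charDegree χ.1) (g := fun χ => (b χ : ℝ) * b χ / 2) fun χ hχ => by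
      have a1 : b χ * b χ ≤ ∑ χ ∈ B.erase (IrrCharacter.triv L), b χ * b χ :=
        Finset.single_le_sum (fun χ _ => mul_self_nonneg (b χ)) hχ
      have a2 : b χ ≤ 1 := by nlinarith
      have a2' : (b χ : ℝ) ≤ 1 := by exact_mod_cast a2
      have a3 : charDegree χ.1 ≠ 1 := fun e => by
        obtain ⟨f, rfl⟩ := χ.exists_eq_ofHom e
        refine (Finset.mem_erase.1 hχ).1 (Subtype.ext (funext fun g => ?_))
        rw [hp f fun z hz => ?_]
        · rfl
        have hc : Commute t z := mem_center_iff.1 (hZ hz) t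
        have ho' : ¬ 2 ∣ orderOf z := fun e => ho.not_two_dvd_nat
          (e.trans (Subgroup.orderOf_dvd_natCard Z hz))
        have hpp := pPart_mul_of_commute hc ⟨1, ht⟩ ho'
        have := h.apply_pPart hM (mem_irrFinset.1 (Finset.mem_erase.1 hχ).2) (g := t * z)
          (pPart_ne_one_iff.1 (by rwa [hpp]))
        rw [hpp] at this
        simpa using this
      have a4 : (2 : ℝ) ≤ charDegree χ.1 := by
        have := χ.charDegree_pos
        exact_mod_cast (by omega : 2 ≤ charDegree χ.1)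
      rw [div_le_div_iff₀ (by linarith) two_pos]
      nlinarith [mul_self_nonneg (b χ : ℝ)]
  rw [h3] at hle
  simp only [IrrCharacter.charDegree_triv] at k3
  norm_num at k3
  linarith

theorem two_false [Fintype L] (h : IsDih (P : Subgroup L) t τ 1)
    (hinv : ∀ s, orderOf s = 2 → IsConj t s) (hZ : Z ≤ center L)
    (hb : ∀ x u : L, x ∉ Z → ¬ 2 ∣ orderOf x → u * u = 1 → Commute u x →
      ∃ (y : L) (z : Z), Commute u y ∧ y * x * y⁻¹ = z * x ∧ lam z ≠ 1) {n : ℕ} (hn : n ≠ 0)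
    {χ ψ : IrrCharacter L} (hχ : Over lam χ.1) (hψ : Over lam ψ.1) (h1 : 2 * χ.1 1 = n * χ.1 t)
    (h2 : 2 * ψ.1 1 = -3 * n * ψ.1 t) : False := by
  classical
  have ht2 := mul_self_eq_one_of_orderOf_two (dih_ord h)
  set c : ℂ := ∑ g : L, if pRegPart 2 g ∈ Z ∧ pPart 2 g = 1 then 1 else 0 with hc
  set d : ℂ := ∑ g : L, if pRegPart 2 g ∈ Z ∧ pPart 2 g ≠ 1 then 1 else 0 with hd
  have key : ∀ α β : IrrCharacter L, Over lam α.1 → Over lam β.1 →
      Nat.card L * classInner α.1 β.1 = c * (α.1 1 * β.1 1) + d * (α.1 t * β.1 t) := by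
    intro α β hα hβ
    rw [classInner_def, mul_inv_cancel_left₀ (Nat.cast_ne_zero.2 Nat.card_pos.ne'), hc, hd,
      Finset.sum_mul, Finset.sum_mul, ← Finset.sum_add_distrib]
    refine Finset.sum_congr rfl fun g _ => ?_
    have hu := dih_sq h (exists_orderOf_pPart (p := 2) g)
    by_cases e : pRegPart 2 g ∈ Z
    · have e1 : α.1 g * conj (β.1 g) = α.1 (pPart 2 g) * conj (β.1 (pPart 2 g)) := by
        conv_lhs => rw [← pRegPart_mul_pPart 2 g, hα ⟨_, e⟩, hβ ⟨_, e⟩, map_mul]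
        linear_combination α.1 (pPart 2 g) * conj (β.1 (pPart 2 g)) * mul_conj_lam lam ⟨_, e⟩
      rw [e1, β.conj_apply_of_mul_self hu]
      by_cases e' : pPart 2 g = 1
      · simp [e, e']
      · have := hinv _ (orderOf_eq_prime (by rw [sq, hu]) e')
        simp [e, e', α.isClassFunction.eq_of_isConj this, β.isClassFunction.eq_of_isConj this]
    · obtain ⟨w, z, a1, a2, a3⟩ := hb _ _ e (not_dvd_orderOf_pRegPart g) hu
        (commute_pPart_pRegPart _ _)
      rw [hα.vanish α.isClassFunction (y := w) ?_ a3]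
      · simp [e]
      rw [← pPart_mul_pRegPart 2 g, ← mul_assoc z.1, ← mem_center_iff.1 (hZ z.2), mul_assoc _ z.1,
        ← a2, ← mul_assoc w, ← a1.eq]
      group
  have hn' : (n : ℂ) ≠ 0 := Nat.cast_ne_zero.2 hn
  have hL : (Nat.card L : ℂ) ≠ 0 := Nat.cast_ne_zero.2 Nat.card_pos.ne'
  have x0 : χ.1 t ≠ 0 := fun e => χ.one_ne_zero (by rw [e] at h1; linear_combination h1 / 2)
  have y0 : ψ.1 t ≠ 0 := fun e => ψ.one_ne_zero (by rw [e] at h2; linear_combination h2 / 2)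
  have k1 := key χ χ hχ hχ
  have k2 := key ψ ψ hψ hψ
  have k3 := key χ ψ hχ hψ
  rw [IrrCharacter.classInner_self] at k1 k2
  rw [IrrCharacter.classInner_of_ne fun e => mul_ne_zero hn' x0 (by
    rw [← e] at h2; linear_combination (h2 - h1) / 4)] at k3
  have e1 : χ.1 1 = n / 2 * χ.1 t := by linear_combination h1 / 2
  have e2 : ψ.1 1 = -3 * n / 2 * ψ.1 t := by linear_combination h2 / 2
  rw [e1] at k1 k3
  rw [e2] at k2 k3
  have e3 : d = 3 * c * n ^ 2 / 4 :=
    mul_right_cancel₀ (mul_ne_zero x0 y0) (by linear_combination -k3)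
  rw [e3] at k1 k2
  have c0 : c * n ^ 2 ≠ 0 := fun e => hL (by linear_combination k1 + χ.1 t ^ 2 * e)
  have e4 : χ.1 t ^ 2 = 3 * ψ.1 t ^ 2 := mul_left_cancel₀ c0 (by linear_combination k2 - k1)
  obtain ⟨x, hx, -⟩ := χ.exists_int_apply_of_mul_self ht2
  obtain ⟨y, hy, -⟩ := ψ.exists_int_apply_of_mul_self ht2
  rw [hy] at y0
  rw [hx, hy] at e4
  have e5 : x ^ 2 = 3 * y ^ 2 := by exact_mod_cast e4
  have e6 : x.natAbs ^ 2 = 3 * y.natAbs ^ 2 := by
    simpa [Int.natAbs_pow, Int.natAbs_mul] using congrArg Int.natAbs e5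
  have y1 : y.natAbs ≠ 0 := by simpa using y0
  have e7 := congrArg (fun m : ℕ => m.factorization 3) e6
  simp only [Nat.factorization_mul (by norm_num : (3 : ℕ) ≠ 0) (pow_ne_zero 2 y1),
    Nat.factorization_pow, Finsupp.add_apply, Finsupp.smul_apply, smul_eq_mul,
    Nat.prime_three.factorization_self] at e7
  omega

theorem setup {G : Type u} [Group G] [Finite G] {X : CExt G} (hZ : Odd (Nat.card X.π.ker))
    {T : Subgroup G} (hT : FT.Syl 2 T ⊤) (hK : Klein T) :
    ∃ (P : Sylow 2 X.E) (t τ : X.E), IsDih (P : Subgroup X.E) t τ 1 := by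
  obtain ⟨S, h1, h2, -⟩ := CExt.exists_lift_klein hZ hT hK
  obtain ⟨P, rfl⟩ := FT.syl_top_iff.1 h1
  obtain ⟨⟨t, ht⟩, h1⟩ := (ne_bot_iff_exists_ne_one).1 h2.ne_bot
  obtain ⟨τ, h⟩ := exists_isDih_of_card_four h2.1 h2.not_cyclic ht
    (h2.orderOf ht fun e => h1 (Subtype.ext e))
  exact ⟨P, t, τ, h⟩

theorem lift_bad {G : Type u} [Group G] [Finite G] {X Y : CExt G} (hZ : Odd (Nat.card Y.π.ker))
    (hY : ∀ a b : G, Commute a b → Odd (orderOf a) → (Y.cp.β a b = 1 ↔ X.cp.β a b = 1))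
    {x u : Y.E} (hx : Odd (orderOf x)) (hu : u * u = 1)
    (h : ∃ y, Commute (Y.π u) y ∧ Commute (Y.π x) y ∧ X.cp.β (Y.π x) y ≠ 1) :
    ∃ (y : Y.E) (z : Y.π.ker), Commute u y ∧ y * x * y⁻¹ = z * x ∧ Y.lam z ≠ 1 := by
  obtain ⟨y, a, b, c⟩ := h
  obtain ⟨y, rfl⟩ := Y.surj y
  refine ⟨y, ⟨_, Y.comm_mem b.symm⟩, (CExt.commute_iff_of_two hZ (k := 1) ?_).2 a, by simp, ?_⟩
  · rw [pow_one, sq, ← map_mul, hu, map_one]
  · rw [← Y.cp_β b.symm, Ne, Y.cp.symm_eq_one b, hY _ _ b ((CExt.odd_orderOf_iff hZ).1 hx)]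
    exact c

end V

open V

theorem stV : StV.{u} := by
  intro G _ _ X T hT hK hc hi hp
  obtain ⟨Y, hZ, hY⟩ := X.exists_odd'
  obtain ⟨P, t, τ, h⟩ := setup hZ hT hK
  have := Fintype.ofFinite Y.E
  have hinv := fun s hs => CExt.isConj_invol hZ hc t s (dih_ord h) hs
  obtain ⟨χ, hχ⟩ := exists_over Y.cen Y.lam
  refine index_ne h hinv Y.cen hZ (fun f hf => ?_) (index_eq h hinv ?_ Y.cen hZ hχ).1
  · let g : G →* ℂˣ := Y.π.liftOfSurjective Y.surj ⟨f, hf⟩
    have : commutator G ≤ g.ker := Abelianization.commutator_subset_ker g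
    ext x
    rw [← show g (Y.π x) = f x from Y.π.liftOfRightInverse_comp_apply _ _ _ x,
      show g (Y.π x) = 1 from this (hp ▸ mem_top _)]
    rfl
  · intro i x u o x1 ox e u2 ux ui
    have ox' : Odd (orderOf x) := by rwa [← Nat.not_even_iff_odd, even_iff_two_dvd]
    refine lift_bad hZ hY ox' u2 (hi (Y.π i) _ _ ?_ (fun e' => x1 ?_)
      ((CExt.odd_orderOf_iff hZ).1 ox') (by simpa using congrArg Y.π e)
      (by rw [← map_mul, u2, map_one]) (ux.map _) (ui.map _))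
    · rw [CExt.orderOf_π_of_two hZ (k := 1) (by rw [pow_one, ← o, pow_orderOf_eq_one]), o]
    · rw [mem_center_iff.1 (Y.cen e') i, mul_inv_cancel_right, eq_inv_iff_mul_eq_one, ← sq] at e
      exact orderOf_eq_one_iff.1 (Nat.eq_one_of_dvd_coprimes ox'.coprime_two_right dvd_rfl
        (orderOf_dvd_of_pow_eq_one e))

theorem stCnt : StCnt.{u} := by
  intro G _ _ X T hT hK hc hi
  obtain ⟨Y, hZ, hY⟩ := X.exists_odd'
  obtain ⟨P, t, τ, h⟩ := setup hZ hT hK
  have := Fintype.ofFinite Y.E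
  have hinv := fun s hs => CExt.isConj_invol hZ hc t s (dih_ord h) hs
  obtain ⟨χ, hχ⟩ := exists_over Y.cen Y.lam
  have hb : ∀ x u : Y.E, x ∉ Y.π.ker → ¬ 2 ∣ orderOf x → u * u = 1 → Commute u x →
      ∃ (y : Y.E) (z : Y.π.ker), Commute u y ∧ y * x * y⁻¹ = z * x ∧ Y.lam z ≠ 1 := by
    intro x u x1 ox u2 ux
    have ox' : Odd (orderOf x) := by rwa [← Nat.not_even_iff_odd, even_iff_two_dvd]
    exact lift_bad hZ hY ox' u2 (hi _ _ x1 ((CExt.odd_orderOf_iff hZ).1 ox')
      (by rw [← map_mul, u2, map_one]) (ux.map _))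
  obtain ⟨h0, ⟨α, a1, a2⟩, β, b1, b2⟩ := index_eq h hinv (fun i x u _ x1 ox e u2 ux _ =>
    hb x u (fun e' => x1 (by
      rw [mem_center_iff.1 (Y.cen e') i, mul_inv_cancel_right, eq_inv_iff_mul_eq_one, ← sq] at e
      exact orderOf_eq_one_iff.1 (Nat.eq_one_of_dvd_coprimes
        ((Nat.Prime.coprime_iff_not_dvd Nat.prime_two).2 ox) (orderOf_dvd_of_pow_eq_one e)
        dvd_rfl))) ox u2 ux) Y.cen hZ hχ
  refine two_false h hinv Y.cen hb (fun e => ?_) a1 b1 a2 b2
  rw [e] at h0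
  exact index_ne_zero_of_finite (by omega : (centralizer ({t} : Set Y.E)).index = 0)

end Cfsg.Gag
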