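import Cfsg.Agent.Gag.CharA
import Cfsg.Agent.Gag.Short
import Cfsg.Agent.CT.GlOdd2
import Cfsg.Agent.CT.OddIndex

/-! # Piece E of the short endgame -/

set_option autoImplicit false

namespace Cfsg.Gag

open Subgroup Cfsg.FT
open scoped Pointwise ComplexConjugate

universe u

variable {G : Type u} [Group G]

namespace CExt

variable (X : CExt G) {U V : Subgroup X.E}

theorem ez_ker_mul (hU : X.π.ker ≤ U) {ψ : IrrCharacter U} (h : rmult ψ X.theta ≠ 0)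
    (z : X.π.ker) {g : X.E} (hg : g ∈ U) : ψ.ez (z * g) = X.lam z * ψ.ez g := by
  obtain ⟨ω, hω⟩ := ψ.exists_central_hom X.cen hU
  have h1 : ∀ g ∈ U, ψ.ez (z * g) = ω z * ψ.ez g := fun g hg => by
    rw [ψ.ez_of_mem hg, ψ.ez_of_mem (mul_mem (hU z.2) hg)]
    exact hω z ⟨g, hg⟩
  have h2 := fun x => ez_eq_rmult_mul hU (X.le_norm_ker _) (X.le_ezStab_theta _) h (x := x)
  have h3 := h1 1 U.one_mem
  rw [mul_one, h2 _ z.2, h2 _ (one_mem _), IrrCharacter.ez_coe, IrrCharacter.ez_one, theta,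
    IrrCharacter.charDegree_ofHom, Nat.cast_one, mul_one, mul_comm] at h3
  rw [h1 g hg, ← mul_right_cancel₀ (Nat.cast_ne_zero.2 h) h3]
  rfl

theorem ez_eq_zero (hU : X.π.ker ≤ U) {ψ : IrrCharacter U} (h : rmult ψ X.theta ≠ 0)
    {e g : X.E} (he : e ∈ U) (hg : g ∈ U) (h1 : Commute (X.π e) (X.π g))
    (h2 : X.cp.β (X.π e) (X.π g) ≠ 1) : ψ.ez e = 0 := by
  have h3 := X.ez_ker_mul hU h ⟨_, X.comm_mem h1.symm⟩ he
  rw [inv_mul_cancel_right, ψ.ez_conj hg, ← X.cp_β h1.symm] at h3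
  by_contra h4
  exact h2 ((X.cp.symm_eq_one h1.symm).2 (Units.val_eq_one.1 ((mul_eq_right₀ h4).1 h3.symm)))

theorem rmult_ne_zero_of_vanish (hU : X.π.ker ≤ U) (hV : U ≤ V) {ψ : IrrCharacter V}
    (h : rmult ψ X.theta ≠ 0) (h0 : ∀ e ∈ U, e ∉ X.π.ker → ψ.ez e = 0) {μ : IrrCharacter U}
    (hμ : rmult μ X.theta ≠ 0) : rmult ψ μ ≠ 0 := by
  classical
  have := Fintype.ofFinite U
  rw [← Nat.cast_ne_zero (R := ℂ), cast_rmult hV, classInner_def,
    Finset.sum_congr rfl (g := fun k : U => if (k : X.E) ∈ X.π.ker then ψ.ez 1 * conj (μ.ez 1)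
      else 0) fun k _ => ?_, Finset.sum_ite, Finset.sum_const_zero, add_zero, Finset.sum_const,
    nsmul_eq_mul]
  · refine mul_ne_zero (inv_ne_zero (Nat.cast_ne_zero.2 Nat.card_pos.ne')) (mul_ne_zero
      (Nat.cast_ne_zero.2 (Finset.card_ne_zero.2 ⟨1, by simp⟩)) (mul_ne_zero ψ.ez_one_ne_zero
        ((_root_.map_ne_zero _).2 μ.ez_one_ne_zero)))
  · split_ifs with hk
    · have h1 := X.ez_ker_mul (hU.trans hV) h ⟨k, hk⟩ V.one_mem
      have h2 := X.ez_ker_mul hU hμ ⟨k, hk⟩ U.one_mem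
      rw [mul_one] at h1 h2
      rw [← μ.ez_coe, h1, h2, map_mul, mul_mul_mul_comm, conj_unitsHom, ← Units.val_mul, ← map_mul,
        mul_inv_cancel, map_one, Units.val_one, one_mul]
    · rw [h0 k k.2 hk, zero_mul]

theorem card_le_card_over (F : Subgroup G) {ι : Type} (f : ι → F)
    (hg : ∀ i, ∀ g ∈ F, Commute (f i : G) g → X.cp.β (f i) g = 1)
    (hi : ∀ i j, i ≠ j → ¬ IsConj (f i) (f j)) :
    Nat.card ι ≤ Nat.card {ψ : IrrCharacter (F.comap X.π) // rmult ψ X.theta ≠ 0} := by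
  have := Fintype.ofFinite (X.π.ker.subgroupOf (F.comap X.π))
  have h1 := card_over_central_eq_card_good (N := X.π.ker.subgroupOf (F.comap X.π))
    (fun z hz => mem_center_iff.2 fun g => Subtype.ext (mem_center_iff.1 (X.cen hz) g))
    (X.lam.comp (subgroupOfEquivOfLe (X.ker_le_comap F)).toMonoidHom)
  simp only [rmult_ne_zero_iff_subgroupOf (X.ker_le_comap F)]
  refine le_trans ?_ h1.ge
  choose e he using fun i => X.surj (f i)
  refine Nat.card_le_card_of_injective (fun i => ⟨_, ⟨e i, (he i ▸ (f i).2 : X.π (e i) ∈ F)⟩, rfl,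
    fun x h3 => ?_⟩) fun i j h => by_contra fun h0 => hi i j h0 ?_
  · have h4 := X.commute_of_comm_mem h3
    refine (X.cp_β h4).symm.trans ((X.cp.symm_eq_one h4.symm).2 ?_)
    simp only [he] at h4 ⊢
    exact hg i _ x.2 h4.symm
  · have h2 := MonoidHom.map_isConj (QuotientGroup.lift _ (X.π.subgroupComap F)
      fun z hz => Subtype.ext hz) (ConjClasses.mk_eq_mk_iff_isConj.1 (congrArg Subtype.val h))
    convert h2 using 1 <;> exact Subtype.ext (he _).symm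

end CExt

theorem exists_pow_mul_of_cube {F : Subgroup G} {c u : G} (hc : c ∈ 𝐍[F]) (h3 : c ^ 3 ∈ F)
    (hu : u ∈ F ⊔ ⟪c⟫) : ∃ k : Fin 3, (c ^ (k : ℕ))⁻¹ * u ∈ F := by
  obtain ⟨_, ⟨n, rfl⟩, f, hf, rfl⟩ := (mem_join_norm' (zpowers_le.2 hc)).1 hu
  refine ⟨⟨(n % 3).toNat, by omega⟩, ?_⟩
  rw [← zpow_natCast, ← zpow_neg, ← mul_assoc, ← zpow_add,
    show -(((n % 3).toNat : ℕ) : ℤ) + n = (3 : ℕ) * (n / 3) by omega, zpow_mul, zpow_natCast]
  exact F.mul_mem (F.zpow_mem h3 _) hf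

theorem cube_mem_of_cube {F : Subgroup G} {c u : G} (hc : c ∈ 𝐍[F]) (h3 : c ^ 3 ∈ F)
    (hu : u ∈ F ⊔ ⟪c⟫) : u ^ 3 ∈ F := by
  obtain ⟨_, ⟨n, rfl⟩, f, hf, rfl⟩ := (mem_join_norm' (zpowers_le.2 hc)).1 hu
  have h1 := fun x => (memJ_norm' (x := x) (zpow_mem hc n)).2
  rw [show (c ^ n * f) ^ 3 = (c ^ 3) ^ n * ((c ^ n)⁻¹ * ((c ^ n)⁻¹ * f * c ^ n) * c ^ n) *
    ((c ^ n)⁻¹ * f * c ^ n) * f by rw [pow_three (c ^ n * f)]; group]
  exact F.mul_mem (F.mul_mem (F.mul_mem (F.zpow_mem h3 _) (h1 _ (h1 _ hf))) (h1 _ hf)) hf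

theorem stE : StE.{u} := by
  intro G _ _ X F c y hF hc h3 hb hy hy1 hg
  classical
  obtain ⟨c, rfl⟩ := X.surj c
  have hZ := X.ker_le_comap F
  have hM : F.comap X.π ≤ (F ⊔ ⟪X.π c⟫).comap X.π := comap_mono le_sup_left
  have hN : (F ⊔ ⟪X.π c⟫).comap X.π ≤ 𝐍[F.comap X.π] := fun g hg =>
    le_normalizer_comap X.π (sup_le le_normalizer (zpowers_le.2 hc) hg)
  obtain ⟨μ, hμ⟩ := exists_rmult_over hZ X.theta
  obtain ⟨ψ, hψ⟩ := exists_rmult_over hM μ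
  have hψ' := rmult_ne_zero_trans hZ hM hψ hμ
  have hcM : ∀ k : ℕ, c ^ k ∈ 𝐍[F.comap X.π] := fun k =>
    pow_mem (hN (mem_sup_right (mem_zpowers _) : X.π c ∈ _)) k
  have h1 : ∀ (k : ℕ), rmult (μ.cj _ (hcM k)) X.theta = rmult μ X.theta := fun k =>
    rmult_cj_left hZ _ _ _ (X.le_ezStab_theta ⊤ trivial) (X.le_norm_ker ⊤ trivial)
  have h2 : ∀ ν : IrrCharacter (F.comap X.π), rmult ν X.theta ≠ 0 →
      ∃ k : Fin 3, μ.cj _ (hcM k) = ν := fun ν hν => by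
    obtain ⟨u, hu, rfl⟩ := clifford_exists_cj hM hN hψ (X.rmult_ne_zero_of_vanish hZ hM hψ'
      (fun e he h => by
        obtain ⟨g, hg, h4, h5⟩ := hb _ he h
        obtain ⟨g, rfl⟩ := X.surj g
        exact X.ez_eq_zero (hZ.trans hM) hψ' (hM he) hg h4 h5) hν)
    obtain ⟨k, hk⟩ := exists_pow_mul_of_cube hc h3 hu
    have h4 : (c ^ (k : ℕ))⁻¹ * u ∈ F.comap X.π := by simpa using hk
    refine ⟨k, ?_⟩
    conv_lhs => rw [← (μ.cj_eq_iff (le_normalizer h4)).2 (le_ezStab μ h4)]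
    rw [IrrCharacter.cj_cj]
    simp only [mul_inv_cancel_left]
  have h4 : Nat.card {ν : IrrCharacter (F.comap X.π) // rmult ν X.theta ≠ 0} ≤ 3 := by
    refine (Nat.card_le_card_of_surjective (fun k : Fin 3 => ⟨μ.cj _ (hcM k), h1 k ▸ hμ⟩)
      fun ν => ?_).trans (by simp)
    obtain ⟨k, hk⟩ := h2 ν.1 ν.2
    exact ⟨k, Subtype.ext hk⟩
  lift y to F using hy
  have a1 : ¬ IsConj y 1 := fun h => hy1 (congrArg Subtype.val (isConj_one_left.1 h))
  have a2 : ¬ IsConj y⁻¹ 1 := fun h => a1 (by rw [inv_eq_one.1 (isConj_one_left.1 h)])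
  have a3 : ¬ IsConj y⁻¹ y := fun h => a1 (by rw [eq_one_of_isConj_inv_of_odd hF h])
  have b1 : ¬ IsConj 1 y := fun h => a1 h.symm
  have b2 : ¬ IsConj 1 y⁻¹ := fun h => a2 h.symm
  have b3 : ¬ IsConj y y⁻¹ := fun h => a3 h.symm
  have hg1 : ∀ g ∈ F, Commute ((1 : F) : G) g → X.cp.β (1 : F) g = 1 := fun g _ _ =>
    X.cp.one_left g
  have hgi : ∀ g ∈ F, Commute ((y⁻¹ : F) : G) g → X.cp.β (y⁻¹ : F) g = 1 := fun g h5 h6 => by
    have h7 : Commute (y : G) g := Commute.inv_left_iff.1 h6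
    rw [coe_inv, X.cp.inv_left h7, hg g h5 h7, inv_one]
  constructor
  · have h5 := X.card_le_card_over F ![1, y, y⁻¹] (fun i => by fin_cases i <;> assumption)
      fun i j h => by fin_cases i <;> fin_cases j <;> first | exact absurd rfl h | assumption
    have h6 := sum_rmult_sq hZ (X.le_norm_ker _) (X.le_ezStab_theta _)
    rw [X.relIndex_ker_comap, ← Finset.sum_filter_of_ne (p := fun ν => rmult ν X.theta ≠ 0)
      fun ν _ h h0 => h (by rw [h0]; rfl), Finset.sum_congr rfl (g := fun _ => rmult μ X.theta ^ 2)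
      fun ν hν => by
        obtain ⟨k, rfl⟩ := h2 ν (Finset.mem_filter.1 hν).2
        rw [h1], Finset.sum_const, smul_eq_mul, 
      ← Nat.subtype_card (p := fun ν => rmult ν X.theta ≠ 0) _ (by simp)] at h6
    refine ⟨rmult μ X.theta, ?_⟩
    rw [← h6]
    congr 1
    exact le_antisymm h4 (by simpa using h5)
  obtain ⟨a, m, hm, e⟩ := Nat.exists_eq_pow_mul_and_not_dvd (orderOf_pos y).ne' 3 (by decide)
  obtain ⟨s, t, hst⟩ : IsCoprime ((3 ^ a : ℕ) : ℤ) m := Nat.isCoprime_iff_coprime.2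
    (((Nat.Prime.coprime_iff_not_dvd Nat.prime_three).2 hm).pow_left a)
  have h0 : ∀ n : ℤ, y ^ (n * ((3 ^ a : ℕ) * m)) = 1 := fun n => by
    rw [mul_comm, zpow_mul, ← Nat.cast_mul, ← e, zpow_natCast, pow_orderOf_eq_one, one_zpow]
  set w := y ^ (t * m - s * (3 ^ a : ℕ)) with hw
  have h5 : w ^ (t * m - s * (3 ^ a : ℕ)) = y := by
    rw [← zpow_mul, show (t * m - s * (3 ^ a : ℕ)) * (t * m - s * (3 ^ a : ℕ)) =
      (s * (3 ^ a : ℕ) + t * m) ^ 2 + (-4 * s * t) * ((3 ^ a : ℕ) * m) by ring, hst, zpow_add, h0]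
    simp
  have h6 : w ^ (3 ^ a) = (y ^ 3 ^ a)⁻¹ := by
    rw [← zpow_natCast, ← zpow_mul, show (t * m - s * (3 ^ a : ℕ)) * (3 ^ a : ℕ) =
      -(s * (3 ^ a : ℕ) + t * m) * (3 ^ a : ℕ) + (2 * t) * ((3 ^ a : ℕ) * m) by ring, hst, zpow_add,
      h0, mul_one, neg_one_mul, zpow_neg, zpow_natCast]
  have h7 : w ^ m = y ^ m := by
    rw [← zpow_natCast, ← zpow_mul, show (t * m - s * (3 ^ a : ℕ)) * m =
      (s * (3 ^ a : ℕ) + t * m) * m + (-2 * s) * ((3 ^ a : ℕ) * m) by ring, hst, zpow_add,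
      h0, mul_one, one_mul, zpow_natCast]
  have hgw : ∀ g ∈ F, Commute (w : G) g → X.cp.β w g = 1 := fun g h8 h9 => by
    have h10 : Commute (y : G) g := by rw [← h5]; exact h9.zpow_left _
    rw [hw, coe_zpow, X.cp.zpow_left h10, hg g h8 h10, one_zpow]
  have c1 : ¬ IsConj w 1 := fun h => a1 (by rw [← h5, isConj_one_left.1 h, one_zpow])
  have c2 : ¬ IsConj w y⁻¹ := fun h => by
    have h8 := h.pow m
    rw [h7, inv_pow] at h8
    have h9 := eq_one_of_isConj_inv_of_odd hF h8.symm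
    obtain ⟨g, h10, h11, h12⟩ := hb y y.2 hy1
    refine h12 (orderOf_eq_one_iff.1 (Nat.eq_one_of_dvd_coprimes
      ((Nat.Prime.coprime_iff_not_dvd Nat.prime_three).2 hm) (orderOf_dvd_of_pow_eq_one ?_)
      (orderOf_dvd_of_pow_eq_one (X.cp.pow_eq_one_of_left h11 (congrArg Subtype.val h9)))))
    rw [← X.cp.pow_right h11]
    exact hg _ (cube_mem_of_cube hc h3 h10) (h11.pow_right 3)
  by_cases c3 : IsConj w y
  · have h8 := c3.pow (3 ^ a)
    rw [h6] at h8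
    obtain ⟨k, -, hk⟩ := (Nat.dvd_prime_pow Nat.prime_three).1
      (orderOf_dvd_of_pow_eq_one (eq_one_of_isConj_inv_of_odd hF h8))
    exact ⟨k, (orderOf_coe y).trans hk⟩
  have d1 : ¬ IsConj 1 w := fun h => c1 h.symm
  have d2 : ¬ IsConj y⁻¹ w := fun h => c2 h.symm
  have d3 : ¬ IsConj y w := fun h => c3 h.symm
  have h8 := (X.card_le_card_over F ![1, y, y⁻¹, w] (fun i => by fin_cases i <;> assumption)
    fun i j h => by fin_cases i <;> fin_cases j <;> first | exact absurd rfl h | assumption).trans h4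
  simp at h8

end Cfsg.Gag
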